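import Cfsg.Agent.Lib.H8TwoGen
import Cfsg.Agent.Lib.H1Prim
import Cfsg.Agent.Lib.CharFrobenius

/-! Flavell's characterisation of `F₂(G)`: basic set-up. -/

set_option autoImplicit false

namespace CfsgLib.F2

open Subgroup Cfsg CfsgLib.H1 CfsgLib.H8TwoGen
open scoped commutatorElement

scoped notation "𝐍⟦" H "⟧" => Subgroup.normalizer (SetLike.coe H)
scoped notation "𝐂⟦" H "⟧" => Subgroup.centralizer (SetLike.coe H)
scoped notation "𝐜⟦" x "⟧" => Subgroup.centralizer ({x} : Set _)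
scoped notation g " •⟦" H "⟧" => Subgroup.map (MulEquiv.toMonoidHom (MulAut.conj g)) H

variable {G : Type*} [Group G] [Finite G] {p : ℕ} [hp : Fact p.Prime] {x : G}

/-- `x` lies in `O_p(H mod F(H))` -/
def Loc (p : ℕ) (x : G) (H : Subgroup G) : Prop :=
  ∃ L : Subgroup G, x ∈ L ∧ L ≤ H ∧ H ≤ 𝐍⟦L⟧ ∧ ∀ y ∈ L, ∃ k : ℕ, y ^ p ^ k ∈ fittingOf H

/-- the minimal counterexample with trivial Fitting subgroup -/
structure Hy (p : ℕ) (x : G) : Prop where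
  ord : orderOf x = p
  fit : fittingSubgroup G = ⊥
  two : ∀ y : G, closure {x, y} ≠ ⊤
  loc : ∀ H : Subgroup G, H ≠ ⊤ → x ∈ H → Loc p x H

/-- nilpotent `p'`-subgroups with `Y = [Y, x]` -/
structure J (p : ℕ) (x : G) (Y : Subgroup G) : Prop where
  iv : Iv p x Y
  nil : Group.IsNilpotent Y
  le : Y ≤ ⁅Y, zpowers x⁆

omit [Finite G] hp in
theorem mem_c1 {a b : G} : a ∈ 𝐜⟦b⟧ ↔ Commute a b := mem_centralizer_singleton_iff

omit [Finite G] hp in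
theorem cz_eq (z : G) : 𝐂⟦zpowers z⟧ = 𝐜⟦z⟧ := le_antisymm
  (centralizer_le (Set.singleton_subset_iff.mpr (mem_zpowers z))) fun g hg => by
    rintro _ ⟨n, rfl⟩
    exact ((mem_c1.mp hg).symm.zpow_left n).eq

omit [Finite G] hp in
theorem zp_conj (g x : G) : g •⟦zpowers x⟧ = zpowers (g * x * g⁻¹) := by
  rw [MonoidHom.map_zpowers]; rfl

omit hp in
theorem map_fit_le {G' : Type*} [Group G'] (f : G →* G') (H : Subgroup G) :
    (fittingOf H).map f ≤ fittingOf (H.map f) :=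
  le_fittingOf (map_mono (fittingOf_le H)) (map_normalizer_le' (le_normalizer_fittingOf H) f)
    (isNilpotent_map (fittingOf_isNilpotent H) f)

omit hp in
theorem Loc.map {G' : Type*} [Group G'] (f : G →* G') {H : Subgroup G} (h : Loc p x H) :
    Loc p (f x) (H.map f) := by
  obtain ⟨L, h1, h2, h3, h4⟩ := h
  refine ⟨L.map f, mem_map_of_mem f h1, map_mono h2, map_normalizer_le' h3 f, ?_⟩
  rintro _ ⟨y, hy, rfl⟩
  obtain ⟨k, hk⟩ := h4 y hy
  exact ⟨k, map_fit_le f H (by rw [← map_pow]; exact mem_map_of_mem f hk)⟩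

omit [Finite G] hp in
theorem conj_ne_top {H : Subgroup G} (h : H ≠ ⊤) (g : G) : g •⟦H⟧ ≠ ⊤ := fun e => h (by
  rw [← map_conj_inv_map_conj g H, e, map_conj_eq_of_normal])

omit hp in
theorem Hy.conj (h : Hy p x) (g : G) : Hy p (g * x * g⁻¹) := by
  refine ⟨by rw [H5.orderOf_conj', h.ord], h.fit, fun y => ?_, fun H hH hx => ?_⟩
  · have := conj_ne_top (h.two (g⁻¹ * y * g)) g
    rw [MonoidHom.map_closure, Set.image_pair] at this
    simpa [mul_assoc] using this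
  · have := (h.loc (g⁻¹ •⟦H⟧) (conj_ne_top hH _) (mem_map_conj_iff.mpr (by simpa using hx))).map
      (MulEquiv.toMonoidHom (MulAut.conj g))
    rwa [map_conj_map_conj_inv] at this

omit hp in
theorem comm_le_of_forall {Y K : Subgroup G} (hx : x ∈ 𝐍⟦Y⟧)
    (h : ∀ a ∈ Y, ⁅a, x⁆ ∈ K) : ⁅Y, zpowers x⁆ ≤ K := by
  rw [commutator_le]
  intro a ha w hw
  obtain ⟨n, rfl⟩ := mem_powers_iff_mem_zpowers.mpr hw
  clear hw
  induction n generalizing a with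
  | zero => simp
  | succ n ih =>
    have h1 := mul_mem (h a ha) (ih (x * a * x⁻¹) (conj_mem_of_mem_normalizer hx ha))
    convert h1 using 1
    simp only [commutatorElement_def]; group

omit [Finite G] hp in
theorem comm_mem_comm {Y : Subgroup G} {a : G} (ha : a ∈ Y) : ⁅a, x⁆ ∈ ⁅Y, zpowers x⁆ :=
  commutator_mem_commutator ha (mem_zpowers x)

theorem cop_zp (hx : orderOf x = p) {Y : Subgroup G} (h : Iv p x Y) :
    (Nat.card (zpowers x)).Coprime (Nat.card Y) := by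
  rw [Nat.card_zpowers, hx]; exact h.2.symm

theorem solv_zp (hx : orderOf x = p) : Group.IsSolvable (zpowers x) :=
  isSolvable_of_isPGroup (isPGroup_zpowers hx)

theorem le_comm_sup (hx : orderOf x = p) {Y : Subgroup G} (h : Iv p x Y) :
    Y ≤ ⁅Y, zpowers x⁆ ⊔ (Y ⊓ 𝐜⟦x⟧) := by
  rw [← cz_eq]
  exact (Cop.commutator_sup_centralizer (zpowers_le.mpr h.1) (cop_zp hx h)
    (Or.inl (solv_zp hx))).ge

omit [Finite G] hp in
theorem comm_le {Y : Subgroup G} (h : x ∈ 𝐍⟦Y⟧) : ⁅Y, zpowers x⁆ ≤ Y :=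
  Cop.commutator_le_left_of_le_normalizer (zpowers_le.mpr h)

omit [Finite G] hp in
theorem iv_of_le {Y Z : Subgroup G} (h : Iv p x Y) (h1 : Z ≤ Y) (h2 : x ∈ 𝐍⟦Z⟧) : Iv p x Z :=
  ⟨h2, Nat.Coprime.coprime_dvd_left (card_dvd_of_le h1) h.2⟩

omit [Finite G] hp in
theorem mem_norm_comm {Y : Subgroup G} {g : G} (h1 : g ∈ 𝐍⟦Y⟧) (h2 : g ∈ 𝐍⟦zpowers x⟧) :
    g ∈ 𝐍⟦(⁅Y, zpowers x⁆ : Subgroup G)⟧ :=
  Cop.le_normalizer_commutator (zpowers_le.mpr h1) (zpowers_le.mpr h2) (mem_zpowers g)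

theorem j_comm (hx : orderOf x = p) {Y : Subgroup G} (h : Iv p x Y)
    (hn : Group.IsNilpotent (⁅Y, zpowers x⁆ : Subgroup G)) : J p x ⁅Y, zpowers x⁆ :=
  ⟨iv_of_le h (comm_le h.1) (mem_norm_comm h.1 (le_normalizer (mem_zpowers x))), hn,
    (Cop.commutator_commutator_eq (zpowers_le.mpr h.1) (cop_zp hx h)).ge⟩

theorem j_of_fpf (hx : orderOf x = p) {Y : Subgroup G} (h : Iv p x Y)
    (hn : Group.IsNilpotent Y) (h0 : Y ⊓ 𝐜⟦x⟧ = ⊥) : J p x Y :=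
  ⟨h, hn, by simpa [h0] using le_comm_sup hx h⟩

omit [Finite G] hp in
theorem J.conj {x' g : G} {Y : Subgroup G} (h : J p x Y) (hx : g •⟦zpowers x⟧ = zpowers x') :
    J p x' (g •⟦Y⟧) :=
  ⟨h.iv.conj hx, isNilpotent_map h.nil _, by
    rw [← hx, ← map_commutator]; exact map_mono h.le⟩

omit hp in
theorem J.le_of_forall {Y K : Subgroup G} (h : J p x Y) (h1 : ∀ a ∈ Y, ⁅a, x⁆ ∈ K) : Y ≤ K :=
  h.le.trans (comm_le_of_forall h.iv.1 h1)

omit hp in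
theorem J.eq_bot {Y : Subgroup G} (h : J p x Y) (h1 : Y ≤ 𝐜⟦x⟧) : Y = ⊥ :=
  le_bot_iff.mp (h.le_of_forall fun a ha => by
    rw [mem_bot, commutatorElement_eq_one_iff_commute]; exact mem_c1.mp (h1 ha))

theorem iv_of_isPGroup {r : ℕ} [Fact r.Prime] (hr : r ≠ p) {Y : Subgroup G} (h : IsPGroup r Y)
    (h1 : x ∈ 𝐍⟦Y⟧) : Iv p x Y := ⟨h1, coprime_card_of_isPGroup_of_ne hr h⟩

/-- `O_{p'}(F(H))` -/
abbrev Fp (p : ℕ) (H : Subgroup G) : Subgroup G := piCoreOf {p}ᶜ (fittingOf H)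

omit hp in
theorem norm_Fp (H : Subgroup G) : H ≤ 𝐍⟦Fp p H⟧ :=
  (le_normalizer_fittingOf H).trans (normalizer_le_normalizer_piCoreOf _)

theorem iv_Fp {H : Subgroup G} (hx : x ∈ H) : Iv p x (Fp p H) :=
  ⟨norm_Fp H hx, piCoreOf_compl_coprime p _⟩

theorem mem_Fp {H : Subgroup G} {y : G} (h : y ∈ fittingOf H) (hy : (orderOf y).Coprime p) :
    y ∈ Fp p H := by
  have h1 := (pCoreOf_sup_piCoreOf_of_isNilpotent p (fittingOf_isNilpotent H)).ge h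
  obtain ⟨a, ha, b, hb, rfl⟩ := (mem_sup_iff_of_le_normalizer
    ((pCoreOf_le _).trans (le_normalizer_piCoreOf _))).mp h1
  obtain ⟨k, hk⟩ := orderOf_eq_pow_of_mem_isPGroup (pCoreOf_isPGroup _) ha
  have hb' : (orderOf b).Coprime p :=
    Nat.Coprime.coprime_dvd_left (orderOf_dvd_natCard _ hb) (piCoreOf_compl_coprime p _)
  have hc : (orderOf a).Coprime (orderOf b) := hk ▸ hb'.symm.pow_left k
  have hab := commute_of_coprime_of_mem_isNilpotent (fittingOf_isNilpotent H) (pCoreOf_le _ ha)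
    (piCoreOf_le _ hb) hc
  have h2 := orderOf_dvd_of_mem_zpowers (mem_zpowers_mul_of_coprime hab hc)
  rw [H5.eq_one_of_mem_of_coprime (pCoreOf_isPGroup _) ha (Nat.Coprime.coprime_dvd_left h2 hy),
    one_mul]
  exact hb

omit hp in
theorem mem_pc {r : ℕ} [Fact r.Prime] {H : Subgroup G} {y : G} (h : y ∈ fittingOf H) {k : ℕ}
    (hy : orderOf y = r ^ k) : y ∈ pCoreOf r H :=
  zpowers_le.mp (le_pCoreOf_of_le_fittingOf (zpowers_le.mpr h) (isPGroup_zpowers_iff.mpr ⟨k, hy⟩))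

omit hp in
theorem mem_fit_of_pow {H : Subgroup G} {y : G} {k : ℕ} (h : y ^ p ^ k ∈ fittingOf H)
    (hy : (orderOf y).Coprime p) : y ∈ fittingOf H :=
  FrobNPC.mem_of_pow_mem_of_coprime (hy.pow_right k) h

/-- the largest member of `J` in `H` -/
abbrev th (p : ℕ) (x : G) (H : Subgroup G) : Subgroup G := ⁅Fp p H, zpowers x⁆

/-- the largest `r`-group in `J` inside `H` -/
abbrev thr (r : ℕ) (x : G) (H : Subgroup G) : Subgroup G := ⁅pCoreOf r H, zpowers x⁆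

omit hp in
theorem th_le_fit {H : Subgroup G} (hx : x ∈ H) : th p x H ≤ fittingOf H :=
  (comm_le (norm_Fp H hx)).trans (piCoreOf_le _)

theorem j_th (ho : orderOf x = p) {H : Subgroup G} (hx : x ∈ H) : J p x (th p x H) :=
  j_comm ho (iv_Fp hx) (isNilpotent_of_le (fittingOf_isNilpotent H) (th_le_fit hx))

omit [Finite G] hp in
theorem thr_le_pc {r : ℕ} {H : Subgroup G} (hx : x ∈ H) : thr r x H ≤ pCoreOf r H :=
  comm_le (le_normalizer_pCoreOf H hx)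

omit [Finite G] hp in
theorem thr_le {r : ℕ} {H : Subgroup G} (hx : x ∈ H) : thr r x H ≤ H :=
  (thr_le_pc hx).trans (pCoreOf_le H)

omit [Finite G] hp in
theorem thr_pg {r : ℕ} {H : Subgroup G} (hx : x ∈ H) : IsPGroup r (thr r x H) :=
  (pCoreOf_isPGroup H).to_le (thr_le_pc hx)

theorem j_thr (ho : orderOf x = p) {r : ℕ} [Fact r.Prime] (hr : r ≠ p) {H : Subgroup G}
    (hx : x ∈ H) : J p x (thr r x H) :=
  j_comm ho (iv_of_isPGroup hr (pCoreOf_isPGroup H) (le_normalizer_pCoreOf H hx))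
    (thr_pg hx).isNilpotent

omit [Finite G] hp in
theorem norm_thr {r : ℕ} {H : Subgroup G} {g : G} (h1 : g ∈ H) (h2 : g ∈ 𝐍⟦zpowers x⟧) :
    g ∈ 𝐍⟦thr r x H⟧ := mem_norm_comm (le_normalizer_pCoreOf H h1) h2

/-- prime power elements of `th` -/
theorem mem_thr_of_mem_th {t : ℕ} [Fact t.Prime] {H : Subgroup G} (hx : x ∈ H) {y : G}
    (hy : y ∈ th p x H) {k : ℕ} (hk : orderOf y = t ^ k) : y ∈ thr t x H := by
  have hn : fittingOf H ≤ 𝐍⟦Fp t H⟧ := le_normalizer_piCoreOf _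
  have h0 : thr t x H ≤ fittingOf H := (thr_le_pc hx).trans (pCoreOf_le_fittingOf t H)
  have h1 : th p x H ≤ Fp t H ⊔ thr t x H := by
    refine comm_le_of_forall (norm_Fp H hx) fun a ha => ?_
    have h2 := (pCoreOf_sup_piCoreOf_of_isNilpotent t (fittingOf_isNilpotent H)).ge
      (piCoreOf_le _ ha)
    rw [pCoreOf_fittingOf] at h2
    obtain ⟨u, hu, v, hv, rfl⟩ := (mem_sup_iff_of_le_normalizer
      ((pCoreOf_le_fittingOf t H).trans hn)).mp h2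
    have h3 := mul_mem (mem_sup_left (T := thr t x H) (conj_mem_of_mem_normalizer
      (hn (pCoreOf_le_fittingOf t H hu)) ((iv_Fp hx).comm_mem hv)))
      (mem_sup_right (comm_mem_comm hu))
    convert h3 using 1
    simp only [commutatorElement_def]; group
  obtain ⟨a, ha, b, hb, rfl⟩ := (mem_sup_iff_of_le_normalizer' (h0.trans hn)).mp (h1 hy)
  have h4 : a ∈ pCoreOf t H := by
    simpa using mul_mem (mem_pc (th_le_fit hx hy) hk) (inv_mem (thr_le_pc hx hb))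
  rw [H5.eq_one_of_mem_of_coprime (pCoreOf_isPGroup H) h4 ((iv_Fp hx).coprime ha), one_mul]
  exact hb

/-- conjugating an element of `A x` of order `p` to `x` -/
theorem exists_conj_eq (ho : orderOf x = p) {A : Subgroup G} (hA : Iv p x A) {w : G} (hw : w ∈ A)
    (ho' : orderOf (w * x) = p) : ∃ c ∈ A, c * (w * x) * c⁻¹ = x := by
  obtain ⟨c, hc, h1⟩ := Cop.exists_conj_le_of_le_sup (B := zpowers (w * x)) (zpowers_le.mpr hA.1)
    (zpowers_le.mpr (mul_mem (mem_sup_left hw) (mem_sup_right (mem_zpowers x))))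
    (by rw [Nat.card_zpowers, ho']; exact hA.2.symm) (Or.inl (solv_zp ho'))
  refine ⟨c, hc, ?_⟩
  have h2 := mul_mem (h1 (conj_mem_map_conj (mem_zpowers _))) (inv_mem (mem_zpowers x))
  have h3 : c * (w * x) * c⁻¹ * x⁻¹ ∈ A := by
    have := mul_mem (mul_mem hc hw) (conj_mem_of_mem_normalizer hA.1 (inv_mem hc))
    simpa [mul_assoc] using this
  exact mul_inv_eq_one.mp (H5.eq_one_of_mem_of_coprime (isPGroup_zpowers ho) h2 (hA.coprime h3))

theorem exists_conj_in (ho : orderOf x = p) {A K : Subgroup G} (hA : Iv p x A) {a : G}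
    (ha : a ∈ A) (h1 : x ∈ K) (h2 : a * x * a⁻¹ ∈ K) :
    ∃ b ∈ A ⊓ K, b * x * b⁻¹ = a * x * a⁻¹ := by
  have h3 : ⁅a, x⁆ * x = a * x * a⁻¹ := by simp [commutatorElement_def]
  obtain ⟨c, hc, h4⟩ := exists_conj_eq ho (hA.inf (le_normalizer h1)) (w := ⁅a, x⁆)
    (mem_inf.mpr ⟨hA.comm_mem ha, mul_mem h2 (inv_mem h1)⟩) (by rw [h3, H5.orderOf_conj', ho])
  refine ⟨c⁻¹, inv_mem hc, ?_⟩
  rw [← h3]
  conv_lhs => rw [← h4]
  group

namespace Hy

variable (h : Hy p x)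
include h

omit [Finite G] in
theorem ne_one : x ≠ 1 := ne_one_of_orderOf h.ord

omit [Finite G] hp in
theorem norm_ne_top {Y : Subgroup G} (h0 : Y ≠ ⊥) (hY : Group.IsNilpotent Y) : 𝐍⟦Y⟧ ≠ ⊤ :=
  fun e => h0 (by
    have := normalizer_eq_top_iff.mp e
    exact le_bot_iff.mp (h.fit ▸ le_fitting hY))

omit [Finite G] hp in
theorem cent_ne_top {z : G} (hz : z ≠ 1) : 𝐜⟦z⟧ ≠ ⊤ := fun e => hz (by
  have : z ∈ center G := mem_center_iff.mpr fun g => (mem_c1.mp (e ▸ mem_top g)).eq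
  simpa [h.fit] using center_le_fitting this)

omit hp in
theorem comm_le_fit {H A : Subgroup G} (hH : H ≠ ⊤) (hx : x ∈ H) (hA : Iv p x A) (h1 : A ≤ H) :
    ⁅A, zpowers x⁆ ≤ fittingOf H := by
  obtain ⟨L, h2, -, h3, h4⟩ := h.loc H hH hx
  refine comm_le_of_forall hA.1 fun a ha => ?_
  obtain ⟨k, hk⟩ := h4 ⁅a, x⁆ (mul_mem (conj_mem_of_mem_normalizer (h3 (h1 ha)) h2) (inv_mem h2))
  exact mem_fit_of_pow hk (hA.coprime (hA.comm_mem ha))

omit hp in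
theorem le_fit {H Y : Subgroup G} (hH : H ≠ ⊤) (hx : x ∈ H) (hY : J p x Y) (h1 : Y ≤ H) :
    Y ≤ fittingOf H := hY.le.trans (h.comm_le_fit hH hx hY.iv h1)

theorem le_th {H Y : Subgroup G} (hH : H ≠ ⊤) (hx : x ∈ H) (hY : J p x Y) (h1 : Y ≤ H) :
    Y ≤ th p x H :=
  hY.le.trans (commutator_mono (fun _ hy => mem_Fp (h.le_fit hH hx hY h1 hy) (hY.iv.coprime hy))
    le_rfl)

omit hp in
theorem le_thr {r : ℕ} [Fact r.Prime] {H Y : Subgroup G} (hH : H ≠ ⊤) (hx : x ∈ H) (hY : J p x Y)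
    (hr : IsPGroup r Y) (h1 : Y ≤ H) : Y ≤ thr r x H :=
  hY.le.trans (commutator_mono (le_pCoreOf_of_le_fittingOf (h.le_fit hH hx hY h1) hr) le_rfl)

theorem comm_le_thr {r : ℕ} [Fact r.Prime] {H A : Subgroup G} (hH : H ≠ ⊤) (hx : x ∈ H)
    (hA : Iv p x A) (hr : IsPGroup r A) (h1 : A ≤ H) : ⁅A, zpowers x⁆ ≤ thr r x H :=
  h.le_thr hH hx (j_comm h.ord hA (hr.to_le (comm_le hA.1)).isNilpotent) (hr.to_le (comm_le hA.1))
    ((comm_le hA.1).trans h1)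

theorem comm_mem_thr {r : ℕ} [Fact r.Prime] {H A : Subgroup G} (hH : H ≠ ⊤) (hx : x ∈ H)
    (hA : Iv p x A) (hr : IsPGroup r A) {a : G} (ha : a ∈ A) (h1 : a * x * a⁻¹ ∈ H) :
    ⁅a, x⁆ ∈ thr r x H := by
  obtain ⟨b, hb, h2⟩ := exists_conj_in h.ord hA ha hx h1
  have h3 : ⁅a, x⁆ = ⁅b, x⁆ := by simp only [commutatorElement_def, h2]
  exact h3 ▸ h.comm_le_thr hH hx (hA.inf (le_normalizer hx)) (hr.to_le inf_le_left) inf_le_right
    (comm_mem_comm hb)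

theorem exists_ext {A : Subgroup G} (hA : Iv p x A) {a g : G} (ha : a ∈ A)
    (hg : g ∈ 𝐍⟦zpowers x⟧) : ∃ H : Subgroup G, H ≠ ⊤ ∧ x ∈ H ∧ g ∈ H ∧ a * x * a⁻¹ ∈ H := by
  obtain ⟨b, hb, h2⟩ := exists_conj_in h.ord hA ha (K := closure {x, a * x * a⁻¹})
    (subset_closure (by simp)) (subset_closure (by simp))
  obtain ⟨h3, h4, h5⟩ := mem_closure_ext (a := b⁻¹) (inv_mem hb.2)
    (by rw [← h2]; simp [mul_assoc]) hg
  exact ⟨_, h.two _, h3, h5, h4⟩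

end Hy

omit hp in
theorem commute_pc {r s : ℕ} [Fact r.Prime] [hs : Fact s.Prime] (hrs : r ≠ s) {H : Subgroup G}
    {a b : G} (ha : a ∈ pCoreOf r H) (hb : b ∈ pCoreOf s H) : Commute a b := by
  obtain ⟨k, hk⟩ := orderOf_eq_pow_of_mem_isPGroup (pCoreOf_isPGroup H) ha
  obtain ⟨l, hl⟩ := orderOf_eq_pow_of_mem_isPGroup (pCoreOf_isPGroup H) hb
  refine commute_of_coprime_of_mem_isNilpotent (fittingOf_isNilpotent H)
    (pCoreOf_le_fittingOf r H ha) (pCoreOf_le_fittingOf s H hb) ?_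
  rw [hk, hl]
  exact Nat.coprime_pow_primes k l Fact.out hs.out hrs

omit hp in
theorem Hy.le_cent (h : Hy p x) {r s : ℕ} [Fact r.Prime] [Fact s.Prime] (hrs : r ≠ s)
    {H Y Z : Subgroup G} (hH : H ≠ ⊤) (hx : x ∈ H) (hY : J p x Y) (hr : IsPGroup r Y) (h1 : Y ≤ H)
    (hZ : J p x Z) (hs : IsPGroup s Z) (h2 : Z ≤ H) : Y ≤ 𝐂⟦Z⟧ := fun _ ha _ hb =>
  (commute_pc hrs (thr_le_pc hx (h.le_thr hH hx hY hr h1 ha))
    (thr_le_pc hx (h.le_thr hH hx hZ hs h2 hb))).symm.eq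

/-- commuting from pairwise properness -/
theorem Hy.le_cent_of_pairs (h : Hy p x) {r s : ℕ} [Fact r.Prime] [Fact s.Prime] (hrs : r ≠ s)
    {Z : Subgroup G} (hZ : J p x Z) (hs : IsPGroup s Z) {A : Subgroup G} (hA : Iv p x A)
    (hr : IsPGroup r A) {a : G} (ha : a ∈ A)
    (h1 : ∀ b ∈ Z, ∃ H : Subgroup G, H ≠ ⊤ ∧ x ∈ H ∧ a * x * a⁻¹ ∈ H ∧ b * x * b⁻¹ ∈ H) :
    ⁅a, x⁆ ∈ 𝐂⟦Z⟧ := by
  have : Z ≤ 𝐜⟦⁅a, x⁆⟧ := hZ.le_of_forall fun b hb => by
    obtain ⟨H, hH, hx, h2, h3⟩ := h1 b hb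
    exact mem_c1.mpr (commute_pc hrs (thr_le_pc hx (h.comm_mem_thr hH hx hA hr ha h2))
      (thr_le_pc hx (h.comm_mem_thr hH hx hZ.iv hs hb h3))).symm
  exact fun b hb => (mem_c1.mp (this hb)).eq

end CfsgLib.F2
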