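import Cfsg.Agent.Lib.F2.A

/-! Flavell's characterisation of `F₂(G)`: nontrivial signalizers and the endgame. -/

set_option autoImplicit false

namespace CfsgLib.F2

open Subgroup Cfsg CfsgLib.H1 CfsgLib.H8TwoGen
open scoped commutatorElement

variable {G : Type*} [Group G] [Finite G] {p : ℕ} [hp : Fact p.Prime] {x : G}

theorem le_sup_sylow {L K R : Subgroup G} (hR : IsSylowIn p R L)
    (h : ∀ y ∈ L, (orderOf y).Coprime p → y ∈ K) : L ≤ K ⊔ R := by
  obtain ⟨P, hP⟩ := hR.exists_sylow_map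
  have h2 := congrArg (Subgroup.map L.subtype) (PRes.pResidual_sup_sylow P)
  rw [Subgroup.map_sup, hP, ← MonoidHom.range_eq_map, range_subtype] at h2
  refine h2.ge.trans (sup_le_sup_right ?_ _)
  rw [map_le_iff_le_comap, PRes.pResidual_le_iff]
  intro g hg
  exact h g g.2 (by simpa using hg)

omit hp in
theorem fit_inf_le {A H : Subgroup G} [hA : A.Normal] (h : A ≤ H) :
    fittingOf H ⊓ A ≤ fittingSubgroup G :=
  (fittingOf_inf_le h).trans (map_fitting_le_of_isSubnormal hA.isSubnormal)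

namespace Hy

variable (h : Hy p x)
include h

theorem comm_eq_one {A H : Subgroup G} [hA : A.Normal] (hH : H ≠ ⊤) (hx : x ∈ H) (h1 : A ≤ H)
    {L : Subgroup G} (h2 : L ≤ H) (h3 : H ≤ 𝐍⟦L⟧)
    (h4 : ∀ y ∈ L, ∃ k : ℕ, y ^ p ^ k ∈ fittingOf H) : A ⊓ L = ⊥ := by
  have h5 : fittingOf H ⊓ A ≤ ⊥ := h.fit ▸ fit_inf_le h1
  have h6 : IsPGroup p (A ⊓ L : Subgroup G) := fun ⟨y, hy⟩ => by
    obtain ⟨k, hk⟩ := h4 y hy.2
    exact ⟨k, Subtype.ext (mem_bot.mp (h5 ⟨hk, pow_mem hy.1 _⟩))⟩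
  exact le_bot_iff.mp ((le_inf (le_fittingOf (inf_le_right.trans h2) (H1.le_normalizer_inf
    (le_normalizer_of_normal) h3) h6.isNilpotent) inf_le_left).trans h5)

theorem not_mem_normal {N : Subgroup G} [N.Normal] (hN : N ≠ ⊤) : x ∉ N := fun hx => by
  obtain ⟨L, h1, h2, h3, h4⟩ := h.loc N hN hx
  exact h.ne_one (mem_bot.mp (h.comm_eq_one hN hx le_rfl h2 h3 h4 ▸ mem_inf.mpr ⟨hx, h1⟩))

theorem eq_bot_of_normal {A H : Subgroup G} [hA : A.Normal] (hH : H ≠ ⊤) (hx : x ∈ H)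
    (h1 : A ≤ H) : A = ⊥ := by
  obtain ⟨L, h2, h3, h4, h5⟩ := h.loc H hH hx
  have h6 := h.comm_eq_one hH hx h1 h3 h4 h5
  have h7 : x ∈ 𝐂⟦A⟧ := fun a ha => by
    have : ⁅a, x⁆ ∈ A ⊓ L := mem_inf.mpr ⟨by
      simpa [commutatorElement_def, mul_assoc] using mul_mem ha (hA.conj_mem _ (inv_mem ha) x),
      mul_mem (conj_mem_of_mem_normalizer (h4 (h1 ha)) h2) (inv_mem h2)⟩
    rw [h6, mem_bot] at this
    exact commutatorElement_eq_one_iff_mul_comm.mp this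
  have h8 : 𝐂⟦A⟧ = ⊤ := by
    by_contra h8
    exact h.not_mem_normal h8 h7
  have : IsMulCommutative A := le_centralizer_iff_isMulCommutative.mp (h8 ▸ le_top)
  exact le_bot_iff.mp (h.fit ▸ le_fitting_of_isMulCommutative)

theorem exists_j {q : ℕ} [hq : Fact q.Prime] (hqp : q ≠ p) (hd : q ∣ Nat.card G) :
    ∃ Y : Subgroup G, J p x Y ∧ IsPGroup q Y ∧ Y ≠ ⊥ := by
  by_contra h0
  push Not at h0
  have hxq : (orderOf x).Coprime q := h.ord ▸ (Nat.coprime_primes hp.out hq.out).mpr hqp.symm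
  have h1 := Cfsg.Agent.S3815.result (p := q) x hxq fun g hg => by
    obtain ⟨H, hH⟩ : ∃ H, H = closure {x, g} := ⟨_, rfl⟩
    have hHt : H ≠ ⊤ := hH ▸ h.two g
    have hxH : x ∈ H := hH ▸ subset_closure (by simp)
    refine coprime_mul_of_mem_Kp (H := H) ?_ (hH ▸ subset_closure (by simp)) hg
    obtain ⟨L, h2, h3, h4, h5⟩ := h.loc H hHt hxH
    have h6 : x ∈ 𝐂⟦pCoreOf q H⟧ := by
      have := h0 _ (j_thr h.ord hqp hxH) (thr_pg hxH)
      exact zpowers_le.mp (Cop.commutator_eq_bot_iff_le_centralizer'.mp this)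
    obtain ⟨R, hxR, hR⟩ := IsSylowIn.exists_ge (isPGroup_zpowers h.ord)
      (zpowers_le.mpr (mem_inf.mpr ⟨h2, h6⟩))
    have hRH : R ≤ H := hR.le.trans (inf_le_left.trans h3)
    have h7 : fittingOf H ≤ 𝐍⟦(Fp q H ⊔ R : Subgroup G)⟧ := by
      rw [← pCoreOf_sup_piCoreOf_of_isNilpotent q (fittingOf_isNilpotent H), pCoreOf_fittingOf]
      exact sup_le (H1.le_normalizer_sup ((pCoreOf_le H).trans (norm_Fp H))
        ((le_centralizer_iff.mp (hR.le.trans inf_le_right)).trans (centralizer_le_normalizer _)))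
        (le_sup_left.trans le_normalizer)
    have h8 : H ≤ 𝐍⟦(Fp q H ⊔ R : Subgroup G)⟧ := by
      refine (hR.frattini_le (inf_le_left.trans h3) (H1.le_normalizer_inf h4
        (H1.le_normalizer_centralizer (le_normalizer_pCoreOf H)))).trans (sup_le ?_
          (H1.le_normalizer_sup (inf_le_left.trans (norm_Fp H)) inf_le_right))
      refine (le_sup_sylow hR fun y hy hc => ?_).trans
        (sup_le h7 (le_sup_right.trans le_normalizer))
      obtain ⟨k, hk⟩ := h5 y hy.1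
      exact mem_fit_of_pow hk hc
    refine le_piCoreOf (sup_le ((piCoreOf_le _).trans (fittingOf_le H)) hRH) h8 ?_
      (mem_sup_right (zpowers_le.mp hxR))
    rw [sup_comm]
    exact isPiSubgroup_sup (hRH.trans (norm_Fp H)) (coprime_iff_isPiSubgroup.mp
      (coprime_card_of_isPGroup_of_ne hqp.symm hR.isPGroup)) (piCoreOf_isPi _)
  have := pPrimeCore_normal q G
  have h2 : pPrimeCore q G = ⊤ := by
    by_contra h2
    exact h.not_mem_normal h2 h1
  have h3 := pPrimeCore_coprime (p := q) (G := G)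
  rw [h2, card_top] at h3
  exact (Nat.Prime.coprime_iff_not_dvd hq.out).mp h3.symm hd

theorem exists_j_ne {t : ℕ} (ht : t.Prime) : ∃ r : ℕ, r.Prime ∧ r ≠ t ∧ r ≠ p ∧
    ∃ Y : Subgroup G, J p x Y ∧ IsPGroup r Y ∧ Y ≠ ⊥ := by
  have h1 : ¬ Group.IsSolvable G := fun hs => by
    have : Nontrivial G := ⟨x, 1, h.ne_one⟩
    exact fitting_ne_bot h.fit
  by_contra h0
  push Not at h0
  refine h1 (isSolvable_of_two_primes ht hp.out fun r hr hd => ?_)
  by_contra h2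
  push Not at h2
  have := Fact.mk hr
  obtain ⟨Y, h3, h4, h5⟩ := h.exists_j h2.2 hd
  exact h5 (h0 r hr h2.1 h2.2 Y h3 h4)

end Hy

/-- `T` is the greatest member of `J` -/
def Top (p : ℕ) (x : G) (T : Subgroup G) : Prop := J p x T ∧ ∀ Y, J p x Y → Y ≤ T

/-- `M` is the maximal subgroup attached to `x` -/
def Good (p : ℕ) (x : G) (M : Subgroup G) : Prop := IsCoatom M ∧ ∃ T, Top p x T ∧ 𝐍⟦T⟧ ≤ M

omit [Finite G] hp in
theorem Top.conj {x' g : G} {T : Subgroup G} (h : Top p x T) (hx : g •⟦zpowers x⟧ = zpowers x') :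
    Top p x' (g •⟦T⟧) := ⟨h.1.conj hx, fun Y hY => (map_conj_map_conj_inv g Y).ge.trans
      (map_mono (h.2 _ (hY.conj (by rw [← hx, map_conj_inv_map_conj]))))⟩

omit [Finite G] hp in
theorem Good.conj {M : Subgroup G} (h : Good p x M) (g : G) : Good p (g * x * g⁻¹) (g •⟦M⟧) := by
  obtain ⟨h1, T, h2, h3⟩ := h
  refine ⟨((MulAut.conj g).mapSubgroup.isCoatom_iff M).mpr h1, _, h2.conj (zp_conj g x), ?_⟩
  rw [normalizer_map_conj]
  exact map_mono h3

omit [Finite G] hp in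
theorem Good.norm_le {M : Subgroup G} (h : Good p x M) : 𝐍⟦zpowers x⟧ ≤ M := by
  obtain ⟨-, T, h2, h3⟩ := h
  intro g hg
  have h4 := h2.conj (map_conj_eq_of_mem_normalizer hg)
  exact h3 (mem_normalizer_of_map_conj_eq (le_antisymm (h2.2 _ h4.1) (h4.2 _ h2.1)))

omit [Finite G] hp in
theorem Good.mem {M : Subgroup G} (h : Good p x M) : x ∈ M :=
  h.norm_le (le_normalizer (mem_zpowers x))

omit [Finite G] hp in
theorem Good.cent_le {M : Subgroup G} (h : Good p x M) : 𝐜⟦x⟧ ≤ M :=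
  (cent1_le_normalizer x).trans h.norm_le

omit [Finite G] hp in
theorem Good.j_le {M Y : Subgroup G} (h : Good p x M) (hY : J p x Y) : Y ≤ M := by
  obtain ⟨-, T, h2, h3⟩ := h
  exact (h2.2 Y hY).trans (le_normalizer.trans h3)

theorem Good.pc_le {M H : Subgroup G} (h : Good p x M) (ho : orderOf x = p) (hx : x ∈ H) {s : ℕ}
    [Fact s.Prime] (hs : s ≠ p) : pCoreOf s H ≤ M :=
  (le_comm_sup ho (iv_of_isPGroup hs (pCoreOf_isPGroup H) (le_normalizer_pCoreOf H hx))).trans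
    (sup_le (h.j_le (j_thr ho hs hx)) (inf_le_right.trans h.cent_le))

theorem Good.mem_of_fit {M H : Subgroup G} (h : Good p x M) (ho : orderOf x = p) (hx : x ∈ H)
    {y : G} (hy : y ∈ fittingOf H) (hc : (orderOf y).Coprime p) : y ∈ M := by
  refine mem_of_forall_primePow_mem fun z hz s k hs hk => ?_
  have := Fact.mk hs
  by_cases hsp : s = p
  · subst hsp
    rw [H5.eq_one_of_mem_of_coprime (isPGroup_zpowers_iff.mpr ⟨k, hk⟩) (mem_zpowers z)
      (Nat.Coprime.coprime_dvd_left (orderOf_dvd_of_mem_zpowers hz) hc)]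
    exact one_mem _
  · exact h.pc_le ho hx hsp (mem_pc (zpowers_le.mpr hy hz) hk)

theorem Hy.layer_le (h : Hy p x) {H : Subgroup G} (hH : H ≠ ⊤) (hx : x ∈ H) :
    layerIn H ≤ 𝐜⟦x⟧ := by
  obtain ⟨L, h2, h3, h4, h5⟩ := h.loc H hH hx
  obtain ⟨R, hR⟩ := IsSylowIn.exists_in (p := p) L
  have h6 : L ≤ R ⊔ fittingOf H := sup_comm (fittingOf H) R ▸ le_sup_sylow hR fun y hy hc => by
    obtain ⟨k, hk⟩ := h5 y hy
    exact mem_fit_of_pow hk hc
  have := fittingOf_isNilpotent H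
  have h7 : Group.IsSolvable L := Cop.solvable_of_le (isSolvable_sup
    ((hR.le.trans h3).trans (le_normalizer_fittingOf H)) (isSolvable_of_isPGroup hR.isPGroup)
    inferInstance) h6
  rw [layerIn_le_iff]
  intro K hK hq
  rcases le_or_commutator_eq_bot_in H hq hK (SubnormalIn.of_le_normalizer h3 h4) with h8 | h8
  · exact absurd (Cop.solvable_of_le h7 h8) (isQuasisimple_not_isSolvable hq)
  · exact fun k hk => mem_c1.mpr (Cop.commutator_eq_bot_iff_le_centralizer'.mp h8 hk x h2).symm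

theorem genFit_le {x' : G} (h : Hy p x) (h' : Hy p x') {M M' : Subgroup G} (hM : Good p x M)
    (hM' : Good p x' M') (h1 : x ∈ M') (h2 : x' ∈ M) : genFitIn M ≤ M' := by
  rw [genFitIn_eq]
  refine sup_le ((h'.layer_le hM.1.1 h2).trans hM'.cent_le) (fittingOf_le_of_forall fun s _ => ?_)
  by_cases hs : s = p
  · subst hs
    have hM'' := hM'
    obtain ⟨-, T, h3, h4⟩ := hM''
    have h5 : T ≤ M := fun y hy => hM.mem_of_fit h.ord h1
      (h'.le_fit hM'.1.1 hM'.mem h3.1 (hM'.j_le h3.1) hy) (h3.1.iv.coprime hy)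
    refine le_trans (b := 𝐂⟦T⟧) (fun a ha y hy => ?_) ((centralizer_le_normalizer _).trans h4)
    obtain ⟨k, hk⟩ := orderOf_eq_pow_of_mem_isPGroup (pCoreOf_isPGroup M) ha
    exact (commute_of_coprime_of_mem_isNilpotent (fittingOf_isNilpotent M)
      (h'.le_fit hM.1.1 h2 h3.1 h5 hy) (pCoreOf_le_fittingOf s M ha)
      (hk ▸ (h3.1.iv.coprime hy).pow_right k)).eq
  · exact hM'.pc_le h'.ord h2 hs

theorem Hy.norm_le_coatom (h : Hy p x) {M A : Subgroup G} (hM : IsCoatom M) (hx : x ∈ M)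
    (h0 : A ≠ ⊥) (h1 : A ≤ M) (h2 : M ≤ 𝐍⟦A⟧) : 𝐍⟦A⟧ ≤ M :=
  ((hM.le_iff.1 h2).resolve_left fun e => h0 (by
    have := normalizer_eq_top_iff.mp e
    exact h.eq_bot_of_normal hM.1 hx h1)).le

theorem good_eq {x' : G} (h : Hy p x) (h' : Hy p x') {M M' : Subgroup G} (hM : Good p x M)
    (hM' : Good p x' M') (h1 : x ∈ M') (h2 : x' ∈ M) : M = M' := by
  by_contra hne
  obtain ⟨q, hq, h3, -⟩ := PrimPair.bender ⟨hne,
    fun A h0 _ h3 h4 => inf_le_right.trans (h.norm_le_coatom hM.1 hM.mem h0 h3 h4),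
    fun A h0 _ h3 h4 => inf_le_right.trans (h.norm_le_coatom hM'.1 h1 h0 h3 h4)⟩
    (genFit_le h h' hM hM' h1 h2) (genFit_le h' h hM' hM h2 h1)
  obtain ⟨r, hr, hrq, -, Y, hY, hY', hY0⟩ := h.exists_j_ne hq
  have := Fact.mk hr
  have := Fact.mk hq
  obtain ⟨y, hy, hy'⟩ := exists_orderOf hY' hY0
  have h4 := thr_le_pc hM.mem (h.le_thr hM.1.1 hM.mem hY hY' (hM.j_le hY) hy)
  have h5 : y ∈ pCoreOf q M := h3 ⟨pCoreOf_le M h4, fun b hb => (commute_pc hrq h4 hb).symm.eq⟩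
  exact ne_one_of_orderOf hy' (H5.eq_one_of_mem_of_coprime (pCoreOf_isPGroup M) h5
    (hy' ▸ (Nat.coprime_primes hr hq).mpr hrq))

theorem Hy.mem_good (h : Hy p x) {M : Subgroup G} (hM : Good p x M) {g : G}
    (h1 : g * x * g⁻¹ ∈ M) (h2 : g⁻¹ * x * g ∈ M) : g ∈ M :=
  h.norm_le_coatom hM.1 hM.mem (fun e => h.ne_one (mem_bot.mp (e ▸ hM.mem))) le_rfl le_normalizer
    (mem_normalizer_of_map_conj_eq
      (good_eq h (h.conj g) hM (hM.conj g) (mem_map_conj_iff.mpr h2) h1).symm)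

theorem Hy.pg_le_good (h : Hy p x) {M R : Subgroup G} (hM : Good p x M) (hR : IsPGroup p R)
    (hx : x ∈ R) : R ≤ M := by
  by_contra h0
  obtain ⟨g, hg, hg'⟩ := SetLike.exists_of_lt (lt_inf_normalizer_of_isPGroup hR
    (inf_lt_left.mpr h0))
  have h1 : x ∈ R ⊓ M := ⟨hx, hM.mem⟩
  exact hg' ⟨hg.1, h.mem_good hM (conj_mem_of_mem_normalizer hg.2 h1).2
    (conj_mem_of_mem_normalizer' hg.2 h1).2⟩

/-- the endgame -/
theorem Hy.false_of_uni (h : Hy p x) {U : Subgroup G} (hU : U ≠ ⊤) (hx : x ∈ U)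
    (h1 : ∀ (r : ℕ) [Fact r.Prime], r ≠ p → ∀ Y : Subgroup G, J p x Y → IsPGroup r Y → Y ≤ U) :
    False := by
  have hT : Top p x (th p x U) := ⟨j_th h.ord hx, fun Y hY => by
    by_cases h0 : Y = ⊥
    · exact h0 ▸ bot_le
    refine h.le_th hU hx hY (le_of_forall_primePow_mem fun y hy t k ht hk => ?_)
    have := Fact.mk ht
    by_cases htp : t = p
    · subst htp
      rw [H5.eq_one_of_mem_of_coprime (isPGroup_zpowers_iff.mpr ⟨k, hk⟩) (mem_zpowers y)
        (hY.iv.coprime hy)]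
      exact one_mem _
    · exact h1 t htp _ (j_thr h.ord htp hY.iv.1) (thr_pg hY.iv.1) (mem_thr_of_mem_th hY.iv.1
        (h.le_th (h.norm_ne_top h0 hY.nil) hY.iv.1 hY le_normalizer hy) hk)⟩
  obtain ⟨r, -, -, -, Y, hY, -, hY0⟩ := h.exists_j_ne hp.out
  obtain ⟨M, hM, hM'⟩ := (eq_top_or_exists_le_coatom _).resolve_left (h.norm_ne_top
    (fun e => hY0 (le_bot_iff.mp (e ▸ hT.2 Y hY))) hT.1.nil)
  have hG : Good p x M := ⟨hM, _, hT, hM'⟩
  refine hM.1 (top_le_iff.mp fun g _ => ?_)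
  have hxH : x ∈ closure {x, g} := subset_closure (by simp)
  obtain ⟨L, h2, h3, h4, h5⟩ := h.loc _ (h.two g) hxH
  obtain ⟨R, hxR, hR⟩ := IsSylowIn.exists_ge (isPGroup_zpowers h.ord) (zpowers_le.mpr h2)
  have hxR' := zpowers_le.mp hxR
  have hRM := h.pg_le_good hG hR.isPGroup hxR'
  refine (hR.frattini_le h3 h4).trans (sup_le ?_ fun n hn => ?_) (subset_closure (by simp))
  · refine (le_sup_sylow hR fun y hy hc => ?_).trans (sup_le le_rfl hRM)
    obtain ⟨k, hk⟩ := h5 y hy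
    exact hG.mem_of_fit h.ord hxH (mem_fit_of_pow hk hc) hc
  · exact h.mem_good hG (hRM (conj_mem_of_mem_normalizer hn.2 hxR'))
      (hRM (conj_mem_of_mem_normalizer' hn.2 hxR'))

end CfsgLib.F2
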