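import Cfsg.Agent.Lib.F2.B

/-! Flavell's characterisation of `F₂(G)`: the case of `p`-rank at least two. -/

set_option autoImplicit false

namespace CfsgLib.F2

open Subgroup Cfsg CfsgLib.H1 CfsgLib.H8TwoGen
open scoped commutatorElement

variable {G : Type*} [Group G] [Finite G] {p : ℕ} [hp : Fact p.Prime] {x : G}

theorem mem_zp_of_mem (ho : orderOf x = p) {v : G} (hv : v ∈ zpowers x) (h1 : v ≠ 1) :
    x ∈ zpowers v := by
  have h2 : orderOf v = p := ((Nat.dvd_prime hp.out).mp (ho ▸ orderOf_dvd_of_mem_zpowers hv)).resolve_left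
    (by simpa using h1)
  rw [eq_of_le_of_card_le (zpowers_le.mpr hv) (by rw [Nat.card_zpowers, Nat.card_zpowers, ho, h2])]
  exact mem_zpowers x

omit [Finite G] hp in
theorem c1_le_of_mem {v w : G} (h : w ∈ zpowers v) : 𝐜⟦v⟧ ≤ 𝐜⟦w⟧ := fun g hg => by
  obtain ⟨n, rfl⟩ := h
  exact mem_c1.mpr ((mem_c1.mp hg).zpow_right n)

theorem Hy.false_of_allc (h : Hy p x) (h1 : ∀ (r s : ℕ) [Fact r.Prime] [Fact s.Prime], r ≠ p →
    s ≠ p → r ≠ s → ∀ Y Z : Subgroup G, J p x Y → IsPGroup r Y → J p x Z → IsPGroup s Z →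
      Y ≤ 𝐂⟦Z⟧) : False := by
  obtain ⟨r, hr, hrp, -, Y, hY, hY', hY0⟩ := h.exists_j_ne hp.out
  obtain ⟨s, hs, hsr, hsp, Z, hZ, hZ', hZ0⟩ := h.exists_j_ne hr
  have := Fact.mk hr
  have := Fact.mk hs
  have h2 : ∀ W, J p x W → IsPGroup r W → W ≤ thr r x 𝐍⟦Z⟧ := fun W hW hW' =>
    h.le_thr (h.norm_ne_top hZ0 hZ.nil) hZ.iv.1 hW hW'
      ((h1 r s hrp hsp hsr.symm W Z hW hW' hZ hZ').trans (centralizer_le_normalizer _))
  have h3 := j_thr h.ord hrp hZ.iv.1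
  refine h.false_of_uni (h.norm_ne_top (fun e => hY0 (le_bot_iff.mp (e ▸ h2 Y hY hY'))) h3.nil)
    h3.iv.1 fun t _ htp W hW hW' => ?_
  by_cases htr : t = r
  · subst htr
    exact (h2 W hW hW').trans le_normalizer
  · exact (h1 t r htp hrp htr W _ hW hW' h3 (thr_pg hZ.iv.1)).trans (centralizer_le_normalizer _)

section rank

variable (h : Hy p x) {β : G} (hβ : orderOf β = p) (hc : Commute β x) (hn : β ∉ zpowers x)
include h hβ hc hn

omit hn in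
theorem elab_v : IsElementaryAbelian p (zpowers x ⊔ zpowers β : Subgroup G) :=
  PGrp.isElementaryAbelian_sup_zpowers (h.ord ▸ pow_orderOf_eq_one x)
    (hβ ▸ pow_orderOf_eq_one β) hc.symm

omit hn in
theorem mem_c1_v {v w : G} (hv : v ∈ zpowers x ⊔ zpowers β) (hw : w ∈ zpowers x ⊔ zpowers β) :
    v ∈ 𝐜⟦w⟧ := mem_c1.mpr
  (le_centralizer_iff_isMulCommutative.mpr (elab_v h hβ hc).1 hw v hv)

theorem le_of_thr_le {r : ℕ} [Fact r.Prime] (hr : r ≠ p) {Y K : Subgroup G} (hY : J p x Y)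
    (hY' : IsPGroup r Y)
    (hK : ∀ v ∈ zpowers x ⊔ zpowers β, v ∉ zpowers x → thr r x 𝐜⟦v⟧ ≤ K) : Y ≤ K := by
  refine hY.le_of_forall fun a ha => ?_
  obtain ⟨H, hH, h1, h2, h3⟩ := h.exists_ext hY.iv ha (cent1_le_normalizer x (mem_c1.mpr hc))
  have hx : x ∈ zpowers x ⊔ zpowers β := mem_sup_left (mem_zpowers x)
  suffices h4 : thr r x H ≤ K from h4 (h.comm_mem_thr hH h1 hY.iv hY' ha h3)
  obtain ⟨T, hT⟩ : ∃ T, T = thr r x H := ⟨_, rfl⟩
  have hTJ : J p x T := hT ▸ j_thr h.ord hr h1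
  have hTr : IsPGroup r T := hT ▸ thr_pg h1
  have hVT : zpowers x ⊔ zpowers β ≤ 𝐍⟦T⟧ := sup_le (zpowers_le.mpr hTJ.iv.1)
    (zpowers_le.mpr (hT ▸ norm_thr h2 (cent1_le_normalizer x (mem_c1.mpr hc))))
  have h5 : T ⊓ 𝐜⟦x⟧ ≤ ⁅T, T⁆ := cz_eq x ▸ Cop.inf_centralizer_le_commutator_of_eq
    (zpowers_le.mpr hTJ.iv.1) (cop_zp h.ord hTJ.iv) (le_antisymm (comm_le hTJ.iv.1) hTJ.le)
  obtain ⟨k, hk⟩ := IsPGroup.iff_card.mp (isPGroup_of_isElementaryAbelian (elab_v h hβ hc))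
  rw [← hT, ← Cop.eq_of_sup_frattini_eq (K := T ⊓ K) inf_le_left (le_trans ?_
    (sup_le_sup_left (Cop.commutator_le_frattini_map hTr) _))]
  · exact inf_le_right
  refine Cop.le_of_centralizer_le_of_not_isCyclic (elab_v h hβ hc).1 (fun hcyc => hn
    (PGrp.mem_zpowers_of_orderOf_dvd (C := zpowers x ⊔ zpowers β) (mem_sup_right (mem_zpowers β))
      hx (by rw [h.ord, hβ]))) hVT (hk ▸ hTJ.iv.2.symm.pow_left k) fun v hv hv1 => ?_
  by_cases hvx : v ∈ zpowers x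
  · exact ((inf_le_inf_left _ (c1_le_of_mem (mem_zp_of_mem h.ord hvx hv1))).trans h5).trans
      le_sup_right
  · have h6 := mem_c1_v h hβ hc hx hv
    have h7 := hTJ.iv.inf (le_normalizer h6)
    exact (le_comm_sup h.ord h7).trans (sup_le_sup (le_inf ((comm_le h7.1).trans inf_le_left)
      ((h.comm_le_thr (h.cent_ne_top hv1) h6 h7 (hTr.to_le inf_le_left) inf_le_right).trans
        (hK v hv hvx))) ((inf_le_inf_right _ inf_le_left).trans h5))

omit hn in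
theorem thr_le_cent {r s : ℕ} [Fact r.Prime] [Fact s.Prime] (hr : r ≠ p) (hs : s ≠ p) (hrs : r ≠ s)
    {v w : G} (hv : v ∈ zpowers x ⊔ zpowers β) (hv' : v ∉ zpowers x)
    (hw : w ∈ zpowers x ⊔ zpowers β) (hw' : w ∉ zpowers x) :
    thr r x 𝐜⟦v⟧ ≤ 𝐂⟦thr s x 𝐜⟦w⟧⟧ := by
  have hx : x ∈ zpowers x ⊔ zpowers β := mem_sup_left (mem_zpowers x)
  have hxv := mem_c1_v h hβ hc hx hv
  have hxw := mem_c1_v h hβ hc hx hw
  have hv1 : v ≠ 1 := fun e => hv' (e ▸ one_mem _)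
  have hw1 : w ≠ 1 := fun e => hw' (e ▸ one_mem _)
  have hvo : orderOf v = p := orderOf_eq_prime ((elab_v h hβ hc).2 v hv) hv1
  have hwo : orderOf w = p := orderOf_eq_prime ((elab_v h hβ hc).2 w hw) hw1
  have hU := j_thr h.ord hr hxv
  have hU' := j_thr h.ord hs hxw
  by_cases hwv : w ∈ zpowers v
  · exact h.le_cent hrs (h.cent_ne_top hw1) hxw hU (thr_pg hxv) ((thr_le hxv).trans
      (c1_le_of_mem hwv)) hU' (thr_pg hxw) (thr_le hxw)
  have h1 : zpowers x ⊔ zpowers β ≤ zpowers x ⊔ zpowers v := by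
    refine sup_le le_sup_left (zpowers_le.mpr ?_)
    obtain ⟨y, hy, z, hz, rfl⟩ := (mem_sup_iff_of_le_normalizer' (zpowers_le.mpr
      (cent1_le_normalizer x (mem_c1.mpr hc)))).mp hv
    refine zpowers_le.mpr ?_ (mem_zp_of_mem hβ hz fun e => hv' (by simpa [e] using hy))
    simpa using mul_mem (inv_mem (mem_sup_left hy))
      (mem_sup_right (mem_zpowers (y * z)) : y * z ∈ zpowers x ⊔ zpowers (y * z))
  obtain ⟨y, hy, z, hz, rfl⟩ := (mem_sup_iff_of_le_normalizer' (zpowers_le.mpr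
    (cent1_le_normalizer x (mem_c1.mpr (mem_c1.mp hxv).symm)))).mp (h1 hw)
  have hy1 : y ≠ 1 := fun e => hwv (by simpa [e] using hz)
  refine hU.le_of_forall fun a ha => h.le_cent_of_pairs hrs hU' (thr_pg hxw) hU.iv (thr_pg hxv) ha
    fun b hb => ?_
  obtain ⟨H, hH⟩ : ∃ H, H = closure {b * x * b⁻¹, v * a} := ⟨_, rfl⟩
  have h2 : b * x * b⁻¹ ∈ H := hH ▸ subset_closure (by simp)
  have h3 : zpowers (v * a) ≤ H := zpowers_le.mpr (hH ▸ subset_closure (by simp))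
  have hva := (mem_c1.mp (thr_le hxv ha)).symm
  have hco : (orderOf v).Coprime (orderOf a) := hvo ▸ (hU.iv.coprime ha).symm
  have h4 : z ∈ H := zpowers_le.mpr (h3 (mem_zpowers_mul_of_coprime hva hco)) hz
  have h5 : a ∈ H := h3 (mem_zpowers_mul_of_coprime' hva hco)
  have h6 : b * y * b⁻¹ ∈ H := zpowers_le.mpr h2 (zp_conj b x ▸ conj_mem_map_conj hy)
  have h7 : ⁅b, y⁆ ∈ thr s x 𝐜⟦y * z⟧ := comm_le hU'.iv.1 (commutator_mem_commutator hb hy)
  have h8 : y * z ∈ H := zpowers_le.mpr (show ⁅b, y⁆ * (y * z) ∈ H by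
    simpa [commutatorElement_def, mul_assoc] using mul_mem h6 h4)
    (mem_zpowers_mul_of_coprime' (mem_c1.mp (thr_le hxw h7)) (hwo ▸ hU'.iv.coprime h7))
  have h9 : x ∈ H := zpowers_le.mpr (by simpa using mul_mem h8 (inv_mem h4))
    (mem_zp_of_mem h.ord hy hy1)
  exact ⟨H, hH ▸ (h.conj b).two _, h9, mul_mem (mul_mem h5 h9) (inv_mem h5), h2⟩

theorem false_of_rank : False :=
  h.false_of_allc fun _ _ _ _ hr hs hrs _ _ hY hY' hZ hZ' =>
    le_of_thr_le h hβ hc hn hr hY hY' fun _ hv hv' => le_centralizer_iff.mp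
      (le_of_thr_le h hβ hc hn hs hZ hZ' fun _ hw hw' =>
        thr_le_cent h hβ hc hs hr hrs.symm hw hw' hv hv')

end rank

end CfsgLib.F2
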