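import Cfsg.Agent.Lib.F2.C

/-! Flavell's characterisation of `F₂(G)`: the case of `p`-rank one, first part. -/

set_option autoImplicit false

namespace CfsgLib.F2

open Subgroup Cfsg CfsgLib.H1 CfsgLib.H8TwoGen
open scoped commutatorElement

variable {G : Type*} [Group G] [Finite G] {p : ℕ} [hp : Fact p.Prime] {x : G}

/-- `⟨x⟩` is the only subgroup of order `p` in `C(x)` -/
def Iso (p : ℕ) (x : G) : Prop := ∀ β : G, orderOf β = p → Commute β x → β ∈ zpowers x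

omit [Finite G] hp in
theorem Iso.conj (h : Iso p x) (g : G) : Iso p (g * x * g⁻¹) := fun β h1 h2 => by
  rw [← zp_conj, mem_map_conj_iff]
  refine h _ (by rw [H5.orderOf_conj'', h1]) ?_
  simpa [mul_assoc] using h2.conj g⁻¹

theorem Iso.le_c1 (h : Iso p x) (ho : orderOf x = p) {R : Subgroup G} (hR : IsPGroup p R)
    (hx : x ∈ R) : R ≤ 𝐜⟦x⟧ := by
  have h0 : R ≠ ⊥ := fun h0 => ne_one_of_orderOf ho (by simpa [h0] using hx)
  obtain ⟨z, hz, hz'⟩ := exists_orderOf (hR.to_le (H5.centerOf_le R)) (H5.centerOf_ne_bot hR h0)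
  exact fun g hg => c1_le_of_mem (mem_zp_of_mem ho (h z hz' (hz.2 x hx).symm)
    (ne_one_of_orderOf hz')) (mem_c1.mpr (hz.2 g hg))

theorem Iso.exists_conj (h : Iso p x) (ho : orderOf x = p) {K R : Subgroup G}
    (hR : IsSylowIn p R K) (hx : x ∈ R) {y : G} (hy : y ∈ K) (hy' : orderOf y = p) :
    ∃ k ∈ K, k * y * k⁻¹ ∈ zpowers x := by
  obtain ⟨k, hk, h1⟩ := hR.exists_conj_le (isPGroup_zpowers hy') (zpowers_le.mpr hy)
  exact ⟨k, hk, h _ (by rw [H5.orderOf_conj', hy'])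
    (mem_c1.mp (h.le_c1 ho hR.isPGroup hx (h1 (conj_mem_map_conj (mem_zpowers y)))))⟩

theorem Iso.exists_conj' (h : Iso p x) (ho : orderOf x = p) {K : Subgroup G}
    (hx : x ∈ K) {y : G} (hy : y ∈ K) (hy' : orderOf y = p) :
    ∃ k ∈ K, k * y * k⁻¹ ∈ zpowers x := by
  obtain ⟨R, h1, hR⟩ := IsSylowIn.exists_ge (isPGroup_zpowers ho) (zpowers_le.mpr hx)
  exact h.exists_conj ho hR (zpowers_le.mp h1) hy hy'

namespace Hy

variable (h : Hy p x) (hi : Iso p x)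
include h hi

theorem ext2 {y k : G} (hy : orderOf y = p) (hk : k ∈ 𝐍⟦zpowers x⟧) :
    ∃ K : Subgroup G, K ≠ ⊤ ∧ x ∈ K ∧ y ∈ K ∧ k ∈ K := by
  obtain ⟨a, ha, h1⟩ := hi.exists_conj' h.ord (K := closure {x, y}) (subset_closure (by simp))
    (subset_closure (by simp)) hy
  exact ⟨_, h.two _, mem_closure_ext ha h1 hk⟩

theorem mem_th_sup {H : Subgroup G} (hH : H ≠ ⊤) (hx : x ∈ H) {y : G} (hy : y ∈ H)
    (hy' : orderOf y = p) : y ∈ th p x H ⊔ zpowers x := by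
  obtain ⟨L, h2, h3, h4, h5⟩ := h.loc H hH hx
  obtain ⟨k, hk, h6⟩ := hi.exists_conj' h.ord hx hy hy'
  have h7 : y ∈ L := by
    simpa [mul_assoc] using conj_mem_of_mem_normalizer' (h4 hk) (zpowers_le.mpr h2 h6)
  obtain ⟨R, h8, hR⟩ := IsSylowIn.exists_ge (isPGroup_zpowers h.ord) (zpowers_le.mpr h2)
  obtain ⟨l, hl, h9⟩ := hi.exists_conj h.ord hR (zpowers_le.mp h8) h7 hy'
  have h10 : L ≤ R ⊔ Fp p H := sup_comm (Fp p H) R ▸ le_sup_sylow hR fun y hy hc => by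
    obtain ⟨k, hk⟩ := h5 y hy
    exact mem_Fp (mem_fit_of_pow hk hc) hc
  obtain ⟨r, hr, f, hf, rfl⟩ := (mem_sup_iff_of_le_normalizer
    ((hR.le.trans h3).trans (norm_Fp H))).mp (h10 hl)
  have h11 := conj_mem_of_mem_normalizer' (cent1_le_normalizer x
    (hi.le_c1 h.ord hR.isPGroup (zpowers_le.mp h8) hr)) h9
  have h12 := mul_mem (mem_sup_left (commutator_mem_commutator (inv_mem hf) h11))
    (mem_sup_right h11 : _ ∈ th p x H ⊔ zpowers x)
  convert h12 using 1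
  simp only [commutatorElement_def]; group

theorem le_cent_thr {t r : ℕ} [Fact t.Prime] [hr : Fact r.Prime] (htp : t ≠ p) (hrp : r ≠ p)
    (hrt : r ≠ t) {z : G} (hz : orderOf z = t) (hzx : Commute z x) {Y : Subgroup G} (hY : J p x Y)
    (hY' : IsPGroup r Y) : Y ≤ 𝐂⟦thr t x 𝐜⟦z⟧⟧ := by
  have hxz : x ∈ 𝐜⟦z⟧ := mem_c1.mpr hzx.symm
  have hzN := cent1_le_normalizer x (mem_c1.mpr hzx)
  have hU := j_thr h.ord htp hxz
  have hz1 := h.cent_ne_top (ne_one_of_orderOf hz)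
  refine hY.le_of_forall fun a ha => ?_
  obtain ⟨H, hH, h1, h2, h3⟩ := h.exists_ext hY.iv ha hzN
  suffices h4 : thr r x H ≤ 𝐂⟦thr t x 𝐜⟦z⟧⟧ from h4 (h.comm_mem_thr hH h1 hY.iv hY' ha h3)
  obtain ⟨T, hT⟩ : ∃ T, T = thr r x H := ⟨_, rfl⟩
  have hTJ : J p x T := hT ▸ j_thr h.ord hrp h1
  have hTr : IsPGroup r T := hT ▸ thr_pg h1
  have hzT : z ∈ 𝐍⟦T⟧ := hT ▸ norm_thr h2 hzN
  rw [← hT]
  refine hTJ.le_of_forall fun b hb => ?_
  obtain ⟨K, hK⟩ : ∃ K, K = closure {b * x * b⁻¹, z} := ⟨_, rfl⟩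
  have hyK : b * x * b⁻¹ ∈ K := hK ▸ subset_closure (by simp)
  have hzK : z ∈ K := hK ▸ subset_closure (by simp)
  have hyT : b * x * b⁻¹ ∈ 𝐍⟦T⟧ :=
    mul_mem (mul_mem (le_normalizer hb) hTJ.iv.1) (inv_mem (le_normalizer hb))
  have hyo : orderOf (b * x * b⁻¹) = p := by rw [H5.orderOf_conj', h.ord]
  obtain ⟨n, hn, h5⟩ := Cop.exists_conj_le_of_subset_mul (N := T ⊓ K) (K := 𝐜⟦z⟧)
    (B := zpowers (b * x * b⁻¹)) (H1.le_normalizer_inf (zpowers_le.mpr hyT)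
      (zpowers_le.mpr (le_normalizer hyK))) (fun u hu => by
        rw [← cz_eq]
        refine Cop.exists_mul_centralizer_of_commutator_mem (H1.le_normalizer_inf
          (zpowers_le.mpr hzT) (zpowers_le.mpr (le_normalizer hzK))) (by
            rw [Nat.card_zpowers, hz]
            exact (coprime_card_of_isPGroup_of_ne hrt (hTr.to_le inf_le_left)).symm)
          (Or.inl (solv_zp hz)) fun v hv => mem_inf.mpr ⟨?_, ?_⟩
        · rw [← zp_conj] at hu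
          obtain ⟨w, hw, rfl⟩ := hu
          have h6 : w * v * w⁻¹ = v := by
            rw [(mem_c1.mp (c1_le_of_mem hv (zpowers_le.mpr hxz hw))).eq, mul_inv_cancel_right]
          have h7 := zpowers_le.mpr hTJ.iv.1 hw
          have h8 := zpowers_le.mpr hzT hv
          have h9 := mul_mem (mul_mem (mul_mem hb (conj_mem_of_mem_normalizer h7 (inv_mem hb)))
            (conj_mem_of_mem_normalizer h7 (conj_mem_of_mem_normalizer h8 hb)))
            (conj_mem_of_mem_normalizer h8 (inv_mem hb))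
          convert h9 using 1
          conv_rhs => rw [show v * b⁻¹ * v⁻¹ = w * v * w⁻¹ * b⁻¹ * v⁻¹ by rw [h6]]
          simp only [commutatorElement_def, MulEquiv.coe_toMonoidHom, MulAut.conj_apply]; group
        · have h6 := zpowers_le.mpr hyK hu
          have h7 := zpowers_le.mpr hzK hv
          exact mul_mem (mul_mem (mul_mem h6 h7) (inv_mem h6)) (inv_mem h7))
    (by rw [Nat.card_zpowers, hyo]; exact hTJ.iv.2.symm.coprime_dvd_right
          (card_dvd_of_le inf_le_left)) (Or.inl (solv_zp hyo))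
  have h6 : ⁅n * b, x⁆ * x = n * (b * x * b⁻¹) * n⁻¹ := by simp only [commutatorElement_def]; group
  have h7 := h5 (conj_mem_map_conj (mem_zpowers _))
  have hA := hTJ.iv.inf (le_normalizer hxz)
  obtain ⟨c, hc, h8⟩ := exists_conj_eq h.ord hA (w := ⁅n * b, x⁆) (mem_inf.mpr
    ⟨hTJ.iv.comm_mem (mul_mem hn.1 hb), by
      rw [← h6] at h7; exact (mul_mem_cancel_right hxz).mp h7⟩)
    (by rw [h6, H5.orderOf_conj', hyo])
  have h9 : ⁅c * b, x⁆ ∈ 𝐂⟦thr t x 𝐜⟦z⟧⟧ := h.le_cent_of_pairs hrt hU (thr_pg hxz) hTJ.iv hTr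
    (mul_mem hc.1 hb) fun u hu => by
      obtain ⟨W, hW, h10, h11, h12⟩ := (h.conj u).ext2 (hi.conj u) (y := c * b * x * (c * b)⁻¹)
        (by rw [H5.orderOf_conj', h.ord]) (k := z) (cent1_le_normalizer _ (mem_c1.mpr (by
          have := (mem_c1.mp (thr_le hxz hu)).symm
          exact (this.mul_right hzx).mul_right this.inv_right)))
      refine ⟨W, hW, ?_, h11, h10⟩
      have h13 : K ≤ c⁻¹ •⟦W⟧ := by
        rw [hK, closure_le]
        rintro _ (rfl | rfl)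
        · exact mem_map_conj_iff.mpr (by simpa [mul_assoc] using h11)
        · exact mem_map_conj_iff.mpr (by
            rw [inv_inv, (mem_c1.mp hc.2).eq, mul_inv_cancel_right]; exact h12)
      have h14 := mem_map_conj_iff.mp (h13 (mul_mem (mul_mem hn.2 hyK) (inv_mem hn.2)))
      rwa [inv_inv, ← h6, h8] at h14
  have h10 : ⁅T ⊓ 𝐜⟦z⟧, zpowers x⁆ ≤ 𝐂⟦thr t x 𝐜⟦z⟧⟧ := by
    have h11 := (hTr.to_le inf_le_left).to_le (comm_le hA.1)
    exact h.le_cent hrt hz1 hxz (j_comm h.ord hA h11.isNilpotent) h11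
      ((comm_le hA.1).trans inf_le_right) hU (thr_pg hxz) (thr_le hxz)
  have h11 : T ⊓ 𝐜⟦z⟧ ≤ 𝐍⟦thr t x 𝐜⟦z⟧⟧ := (le_comm_sup h.ord hA).trans (sup_le
    (h10.trans (centralizer_le_normalizer _)) fun g hg => norm_thr hg.1.2
      (cent1_le_normalizer x hg.2))
  have h12 := mul_mem (conj_mem_of_mem_normalizer' (H1.le_normalizer_centralizer h11 hc) h9)
    (h10 (comm_mem_comm (inv_mem hc)))
  convert h12 using 1
  simp only [commutatorElement_def]; group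

omit hi in
/-- a `t`-group in `J` with fixed points -/
theorem le_of_fix {t : ℕ} [Fact t.Prime] {T K : Subgroup G} (hT : J p x T) (hT' : IsPGroup t T)
    (h0 : T ⊓ 𝐜⟦x⟧ ≠ ⊥) (h1 : ∀ z, orderOf z = t → Commute z x → thr t x 𝐜⟦z⟧ ≤ K)
    (h2 : ∀ Z : Subgroup G, J p x Z → Z ≠ ⊥ → Z ≤ K → T ≤ 𝐂⟦Z⟧ → T ≤ K) : T ≤ K := by
  obtain ⟨z, hz, hz'⟩ := exists_orderOf (hT'.to_le inf_le_left) h0
  have hZ : Iv p x (H5.centerOf T) := iv_of_le hT.iv (H5.centerOf_le T)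
    (H5.normalizer_le_normalizer_centerOf T hT.iv.1)
  have hZ' := hT'.to_le (H5.centerOf_le T)
  by_cases h3 : ⁅H5.centerOf T, zpowers x⁆ = ⊥
  · obtain ⟨w, hw, hw'⟩ := exists_orderOf hZ' (H5.centerOf_ne_bot hT' fun e => h0 (by simp [e]))
    have h4 : Commute w x := commutatorElement_eq_one_iff_commute.mp
      (mem_bot.mp (h3 ▸ comm_mem_comm hw))
    exact (h.le_thr (h.cent_ne_top (ne_one_of_orderOf hw')) (mem_c1.mpr h4.symm) hT hT'
      fun g hg => mem_c1.mpr (hw.2 g hg)).trans (h1 w hw' h4)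
  · exact h2 _ (j_comm h.ord hZ (hZ'.to_le (comm_le hZ.1)).isNilpotent) h3
      ((h.comm_le_thr (h.cent_ne_top (ne_one_of_orderOf hz')) (mem_c1.mpr (mem_c1.mp hz.2).symm)
        hZ hZ' fun g hg => mem_c1.mpr (hg.2 z hz.1).symm).trans (h1 z hz' (mem_c1.mp hz.2)))
      fun g hg w hw => ((comm_le hZ.1 hw).2 g hg).symm

theorem thr_eq_bot {t : ℕ} [ht : Fact t.Prime] (htp : t ≠ p) {z : G} (hz : orderOf z = t)
    (hzx : Commute z x) : thr t x 𝐜⟦z⟧ = ⊥ := by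
  by_contra h0
  have hxz : x ∈ 𝐜⟦z⟧ := mem_c1.mpr hzx.symm
  have hU := j_thr h.ord htp hxz
  have hU0 := h.norm_ne_top h0 hU.nil
  obtain ⟨r, hr, hrt, hrp, Y, hY, hY', hY0⟩ := h.exists_j_ne ht.out
  have := Fact.mk hr
  have h1 : ∀ (s : ℕ) [Fact s.Prime], s ≠ p → s ≠ t → ∀ W, J p x W → IsPGroup s W →
      W ≤ 𝐍⟦thr t x 𝐜⟦z⟧⟧ := fun s _ h1 h2 W hW hW' =>
    (h.le_cent_thr hi htp h1 h2 hz hzx hW hW').trans (centralizer_le_normalizer _)
  obtain ⟨R, hR⟩ : ∃ R, R = thr r x 𝐍⟦thr t x 𝐜⟦z⟧⟧ := ⟨_, rfl⟩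
  have hRJ : J p x R := hR ▸ j_thr h.ord hrp hU.iv.1
  have hRr : IsPGroup r R := hR ▸ thr_pg hU.iv.1
  have h2 : ∀ W, J p x W → IsPGroup r W → W ≤ R := fun W hW hW' =>
    hR ▸ h.le_thr hU0 hU.iv.1 hW hW' (h1 r hrp hrt W hW hW')
  have h3 : ∀ w, orderOf w = t → Commute w x → thr t x 𝐜⟦w⟧ ≤ 𝐂⟦R⟧ := fun w hw hw' =>
    le_centralizer_iff.mp (h.le_cent_thr hi htp hrp hrt hw hw' hRJ hRr)
  have h4 : ∀ T, J p x T → IsPGroup t T → ¬ T ≤ 𝐂⟦R⟧ → T ⊓ 𝐜⟦x⟧ = ⊥ := fun T hT hT' h4 => by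
    by_contra h5
    exact h4 (h.le_of_fix hT hT' h5 h3 fun Z hZ hZ0 h6 h7 => h.le_cent hrt.symm
      (h.norm_ne_top hZ0 hZ.nil) hZ.iv.1 hT hT' (h7.trans (centralizer_le_normalizer _)) hRJ hRr
      ((le_centralizer_iff.mp h6).trans (centralizer_le_normalizer _)))
  have hsub : ∀ T, J p x T → IsPGroup t T → ¬ T ≤ 𝐂⟦R⟧ → ∀ Z, x ∈ 𝐍⟦Z⟧ → J p x (T ⊓ Z) :=
    fun T hT hT' h5 Z hZ => j_of_fpf h.ord (hT.iv.inf hZ) (hT'.to_le inf_le_left).isNilpotent
      (le_bot_iff.mp ((inf_le_inf_right _ inf_le_left).trans (h4 T hT hT' h5).le))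
  have h5 : ∀ T, J p x T → IsPGroup t T → ¬ T ≤ 𝐂⟦R⟧ → T ⊓ 𝐂⟦R⟧ = ⊥ := fun T hT hT' h5 => by
    by_contra h6
    have h7 := hsub T hT hT' h5 _ (Cop.normalizer_le_normalizer_centralizer R hRJ.iv.1)
    exact (lt_inf_normalizer_of_isPGroup hT' (inf_lt_left.mpr h5)).not_ge (le_inf inf_le_left
      (h.le_cent hrt.symm (h.norm_ne_top h6 h7.nil) h7.iv.1 (hsub T hT hT' h5 _
        (le_normalizer h7.iv.1)) (hT'.to_le inf_le_left) inf_le_right hRJ hRr
        ((le_centralizer_iff.mp inf_le_right).trans (centralizer_le_normalizer _))))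
  have h6 : ∀ T, J p x T → IsPGroup t T → T ≤ 𝐂⟦R⟧ := fun T hT hT' =>
    hT.le_of_forall fun a ha => by
      obtain ⟨H, hH, h6, h7, h8⟩ := h.exists_ext hT.iv ha (cent1_le_normalizer x (mem_c1.mpr hzx))
      refine (?_ : thr t x H ≤ _) (h.comm_mem_thr hH h6 hT.iv hT' ha h8)
      by_contra h9
      have h10 := j_thr h.ord htp h6
      have h11 := zpowers_le.mpr (norm_thr (r := t) h7 (cent1_le_normalizer x (mem_c1.mpr hzx)))
      refine inf_centralizer_ne_bot_of_isNilpotent (isPGroup_sup_of_le_normalizer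
        (isPGroup_zpowers hz) (thr_pg h6) h11).isNilpotent le_sup_right (sup_le h11 le_normalizer)
        (fun e => h9 (e ▸ bot_le)) (le_bot_iff.mp (le_trans (inf_le_inf_left _ ?_)
          ((le_inf inf_le_left ((h.le_thr (h.cent_ne_top (ne_one_of_orderOf hz)) hxz
            (hsub _ h10 (thr_pg h6) h9 _ (le_normalizer hxz)) ((thr_pg h6).to_le inf_le_left)
            inf_le_right).trans (h3 z hz hzx))).trans (h5 _ h10 (thr_pg h6) h9).le)))
      exact centralizer_le (Set.singleton_subset_iff.mpr (mem_sup_left (mem_zpowers z)))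
  refine h.false_of_uni (h.norm_ne_top (fun e => hY0 (le_bot_iff.mp (e ▸ h2 Y hY hY'))) hRJ.nil)
    hRJ.iv.1 fun s _ hsp W hW hW' => ?_
  by_cases hst : s = t
  · subst hst
    exact (h6 W hW hW').trans (centralizer_le_normalizer _)
  by_cases hsr : s = r
  · subst hsr
    exact (h2 W hW hW').trans le_normalizer
  exact (h.le_cent hsr hU0 hU.iv.1 hW hW' (h1 s hsp hst W hW hW') hRJ hRr
    (h1 r hrp hrt R hRJ hRr)).trans (centralizer_le_normalizer _)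

end Hy

end CfsgLib.F2
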