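import Cfsg.Agent.Lib.F2.D

/-! Flavell's characterisation of `F₂(G)`: the case of `p`-rank one, second part. -/

set_option autoImplicit false

namespace CfsgLib.F2

open Subgroup Cfsg CfsgLib.H1 CfsgLib.H8TwoGen
open scoped commutatorElement

variable {G : Type*} [Group G] [Finite G] {p : ℕ} [hp : Fact p.Prime] {x : G}

omit [Finite G] hp in
theorem maxj_conj {g : G} {Y : Subgroup G} (h : Maximal (J p x) Y) (hg : g ∈ 𝐍⟦zpowers x⟧) :
    Maximal (J p x) (g •⟦Y⟧) := by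
  refine ⟨h.1.conj (map_conj_eq_of_mem_normalizer hg), fun W hW hle => ?_⟩
  have h1 := h.2 (hW.conj (map_conj_eq_of_mem_normalizer (inv_mem hg)))
    ((map_conj_inv_map_conj g Y).ge.trans (map_mono hle))
  exact (map_conj_map_conj_inv g W).ge.trans (map_mono h1)

omit hp in
theorem exists_prime_elem {Y : Subgroup G} (h0 : Y ≠ ⊥) : ∃ y ∈ Y, (orderOf y).Prime := by
  obtain ⟨t, ht, h1⟩ := Nat.exists_prime_and_dvd (fun e => h0 (card_eq_one.mp e))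
  have := Fact.mk ht
  obtain ⟨⟨y, hy⟩, h2⟩ := exists_prime_orderOf_dvd_card' (G := Y) t h1
  rw [orderOf_mk] at h2
  exact ⟨y, hy, h2 ▸ ht⟩

namespace Hy

variable (h : Hy p x) (hi : Iso p x)
include h hi

theorem fpf {Y : Subgroup G} (hY : J p x Y) : Y ⊓ 𝐜⟦x⟧ = ⊥ := by
  by_contra h0
  obtain ⟨y, hy, hy'⟩ := exists_prime_elem h0
  have := Fact.mk hy'
  have h1 : orderOf y ≠ p := fun e => hp.out.one_lt.ne' (by simpa [e] using hY.iv.coprime hy.1)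
  have h2 : y ∈ thr (orderOf y) x 𝐍⟦Y⟧ := mem_thr_of_mem_th hY.iv.1 (h.le_th
    (h.norm_ne_top (fun e => h0 (by simp [e])) hY.nil) hY.iv.1 hY le_normalizer hy.1)
    (pow_one _).symm
  have h3 : y ≠ 1 := ne_one_of_orderOf (p := orderOf y) rfl
  refine h3 (mem_bot.mp (h.le_of_fix (j_thr h.ord h1 hY.iv.1) (thr_pg hY.iv.1) (fun e => h3 ?_)
    (fun z hz hz' => (h.thr_eq_bot hi h1 hz hz').le) (fun Z _ h4 h5 => absurd (le_bot_iff.mp h5) h4)
    h2))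
  exact mem_bot.mp (e ▸ mem_inf.mpr ⟨h2, hy.2⟩)

theorem eq_one {Y : Subgroup G} (hY : J p x Y) {y : G} (hy : y ∈ Y) (hc : ⁅y, x⁆ = 1) : y = 1 :=
  mem_bot.mp (h.fpf hi hY ▸ mem_inf.mpr ⟨hy, mem_c1.mpr (commutatorElement_eq_one_iff_commute.mp hc)⟩)

theorem j_inf {Y Z : Subgroup G} (hY : J p x Y) (hZ : x ∈ 𝐍⟦Z⟧) : J p x (Y ⊓ Z) :=
  j_of_fpf h.ord (hY.iv.inf hZ) (isNilpotent_of_le hY.nil inf_le_left)
    (le_bot_iff.mp ((inf_le_inf_right _ inf_le_left).trans (h.fpf hi hY).le))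

theorem maxj_eq {Y₁ Y₂ : Subgroup G} (h1 : Maximal (J p x) Y₁) (h2 : Maximal (J p x) Y₂)
    (h0 : Y₁ ⊓ Y₂ ≠ ⊥) : Y₁ = Y₂ := by
  by_contra hne
  obtain ⟨⟨Y₁, Y₂⟩, ⟨h1, h2, h0, hne⟩, hmax⟩ := Set.Finite.exists_maximalFor
    (fun t : Subgroup G × Subgroup G => t.1 ⊓ t.2)
    {t | Maximal (J p x) t.1 ∧ Maximal (J p x) t.2 ∧ t.1 ⊓ t.2 ≠ ⊥ ∧ t.1 ≠ t.2} (Set.toFinite _)
    ⟨(Y₁, Y₂), h1, h2, h0, hne⟩
  simp only at h1 h2 h0 hne
  have hD := h.j_inf hi h1.1 h2.1.iv.1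
  have hN := h.norm_ne_top h0 hD.nil
  obtain ⟨Y₃, h3, h4⟩ := Finite.exists_le_maximal (j_th h.ord hD.iv.1)
  have key : ∀ Y : Subgroup G, Maximal (J p x) Y → Y₁ ⊓ Y₂ < Y → Y = Y₃ := by
    intro Y hY hlt
    by_contra h5
    have h6 := lt_inf_normalizer_of_isNilpotent hY.1.nil hlt
    have h7 := h.le_th hN hD.iv.1 (h.j_inf hi hY.1 (le_normalizer hD.iv.1)) inf_le_right
    have h8 : Y₁ ⊓ Y₂ < Y ⊓ Y₃ := h6.trans_le (le_inf inf_le_left (h7.trans h3))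
    exact h8.not_ge (hmax (j := (Y, Y₃)) ⟨hY, h4, h8.ne_bot, h5⟩ h8.le)
  exact hne ((key Y₁ h1 (lt_of_le_of_ne inf_le_left fun h5 =>
      hne (h1.eq_of_le h2.1 (inf_eq_left.mp h5)))).trans
    (key Y₂ h2 (lt_of_le_of_ne inf_le_right fun h5 =>
      hne (h2.eq_of_le h1.1 (inf_eq_right.mp h5)).symm)).symm)

theorem th_le_of_mem {H Y : Subgroup G} (hH : H ≠ ⊤) (hx : x ∈ H) (hY : Maximal (J p x) Y) {w : G}
    (h1 : w ∈ Y) (h2 : w ∈ H) (hw : w ≠ 1) : w ∈ th p x H ∧ th p x H ≤ Y := by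
  have h3 := h.le_th hH hx (h.j_inf hi hY.1 (le_normalizer hx)) inf_le_right (mem_inf.mpr ⟨h1, h2⟩)
  obtain ⟨W, h4, h5⟩ := Finite.exists_le_maximal (j_th h.ord hx)
  exact ⟨h3, h4.trans (h.maxj_eq hi h5 hY fun e => hw
    (mem_bot.mp (e ▸ mem_inf.mpr ⟨h4 h3, h1⟩))).le⟩

theorem norm_le_norm {Y : Subgroup G} (hY : Maximal (J p x) Y) (h0 : Y ≠ ⊥) :
    𝐍⟦zpowers x⟧ ≤ 𝐍⟦Y⟧ := by
  intro d hd
  obtain ⟨u, hu, hu1⟩ := exists_prime_elem h0
  obtain ⟨H, hH, h1, h2, h3⟩ := h.exists_ext hY.1.iv hu hd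
  have hw : ⁅u, x⁆ ≠ 1 := fun e => hu1.one_lt.ne' (by rw [h.eq_one hi hY.1 hu e, orderOf_one])
  obtain ⟨h4, h5⟩ := h.th_le_of_mem hi hH h1 hY (hY.1.iv.comm_mem hu) (mul_mem h3 (inv_mem h1)) hw
  refine mem_normalizer_of_map_conj_eq (h.maxj_eq hi (maxj_conj hY hd) hY fun e => hw ?_)
  exact mem_bot.mp (e ▸ mem_inf.mpr ⟨mem_map_conj_iff.mpr (h5 (conj_mem_of_mem_normalizer'
    (mem_norm_comm (norm_Fp H h2) hd) h4)), h5 h4⟩)

theorem mem_sup_of_not {Y : Subgroup G} (hY : Maximal (J p x) Y) {g d : G}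
    (h1 : d ∈ 𝐍⟦zpowers (g * x * g⁻¹)⟧) (h2 : d ∈ 𝐍⟦(Y ⊔ zpowers x : Subgroup G)⟧)
    (h3 : d * x * d⁻¹ ∉ zpowers x) : g * x * g⁻¹ ∈ Y ⊔ zpowers x := by
  obtain ⟨K, hK, h4, h5, h6⟩ := (h.conj g).ext2 (hi.conj g) h.ord h1
  obtain ⟨w, hw, y, hy, h7⟩ := (mem_sup_iff_of_le_normalizer' (zpowers_le.mpr hY.1.iv.1)).mp
    (conj_mem_of_mem_normalizer h2 (mem_sup_right (mem_zpowers x)))
  have h8 := (h.th_le_of_mem hi hK h5 hY hw (by
    rw [eq_mul_inv_of_mul_eq h7]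
    exact mul_mem (mul_mem (mul_mem h6 h5) (inv_mem h6)) (inv_mem (zpowers_le.mpr h5 hy)))
    (fun e => h3 (by rw [← h7, e, one_mul]; exact hy))).2
  exact sup_le_sup_right h8 _ (h.mem_th_sup hi hK h5 h4 (h.conj g).ord)

theorem eq_one_of_norm {Y : Subgroup G} (hY : J p x Y) {y : G} (hy : y ∈ Y)
    (hn : y ∈ 𝐍⟦zpowers x⟧) : y = 1 :=
  h.eq_one hi hY hy (H5.eq_one_of_mem_of_coprime (isPGroup_zpowers h.ord)
    (mul_mem (conj_mem_of_mem_normalizer hn (mem_zpowers x)) (inv_mem (mem_zpowers x)))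
    (hY.iv.coprime (hY.iv.comm_mem hy)))

theorem mem_cent_of_fix {Y Z : Subgroup G} (hY : Maximal (J p x) Y) (hZ : Maximal (J p x) Z)
    (hne : Y ≠ Z) {c d : G} (hd : d ∈ 𝐍⟦zpowers x⟧) (hc : c ∈ Y) (hc1 : c ≠ 1)
    (hcd : Commute c d) : d ∈ 𝐂⟦Z⟧ := by
  intro a ha
  have hZ0 : Z ≠ ⊥ ∨ a = 1 := by
    by_cases h0 : Z = ⊥
    · exact Or.inr (mem_bot.mp (h0 ▸ ha))
    · exact Or.inl h0
  rcases hZ0 with hZ0 | rfl
  swap
  · simp
  have hdZ := h.norm_le_norm hi hZ hZ0 hd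
  have h1 : a⁻¹ * d * a ∈ 𝐍⟦zpowers x⟧ := by
    by_contra h1
    have h2 := h.mem_sup_of_not hi hZ (g := a⁻¹ * c) (d := a⁻¹ * d * a) (by
        rw [← zp_conj, normalizer_map_conj, mem_map_conj_iff]
        convert hd using 1
        calc (a⁻¹ * c)⁻¹ * (a⁻¹ * d * a) * (a⁻¹ * c) = c⁻¹ * (d * c) := by group
          _ = d := by rw [← hcd.eq, inv_mul_cancel_left])
      (mul_mem (mul_mem (inv_mem (le_normalizer (mem_sup_left ha))) (H1.le_normalizer_sup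
        (zpowers_le.mpr hdZ) (zpowers_le.mpr hd) (mem_zpowers d)))
        (le_normalizer (mem_sup_left ha)))
      (fun h3 => h1 (mem_normalizer_of_conj_mem (by
        rintro _ ⟨n, rfl⟩
        have := zpow_mem h3 n
        rwa [conj_zpow] at this)))
    have h3 : ⁅c, x⁆ ∈ zpowers x ⊔ Z := by
      rw [sup_comm]
      have := mul_mem (mul_mem (mul_mem (mem_sup_left ha) h2) (inv_mem (mem_sup_left ha)))
        (inv_mem (mem_sup_right (mem_zpowers x)))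
      convert this using 1
      simp only [commutatorElement_def]; group
    have h4 := hY.1.iv.comm_mem hc
    refine hne (h.maxj_eq hi hY hZ fun e => hc1 (h.eq_one hi hY.1 hc (mem_bot.mp (e ▸ mem_inf.mpr
      ⟨h4, mem_of_coprime_of_mem_sup h.ord hZ.1.iv.1 h3 (hY.1.iv.coprime h4)⟩))))
  have h2 := h.eq_one_of_norm hi hZ.1 (y := a⁻¹ * (d * a * d⁻¹))
    (mul_mem (inv_mem ha) (conj_mem_of_mem_normalizer hdZ ha))
    (by simpa [mul_assoc] using mul_mem h1 (inv_mem hd))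
  calc a * d = a * (a⁻¹ * (d * a * d⁻¹)) * d := by rw [h2, mul_one]
    _ = d * a := by group

theorem commute_of_prime {Y Z : Subgroup G} (hY : Maximal (J p x) Y) (hZ : Maximal (J p x) Z)
    (hne : Y ≠ Z) (hY0 : Y ≠ ⊥) (hZ0 : Z ≠ ⊥) {d : G} (hd : d ∈ 𝐍⟦zpowers x⟧)
    (hdr : (orderOf d).Prime) : Commute d x := by
  by_contra h0
  have hP := isPGroup_zpowers h.ord
  have hd₁ := h.norm_le_norm hi hY hY0 hd
  have hPd : ∀ w ∈ zpowers x, Commute w d → w = 1 := fun w hw hc => by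
    by_contra hw1
    exact h0 (mem_c1.mp (c1_le_of_mem (mem_zp_of_mem h.ord hw hw1) (mem_c1.mpr hc.symm)))
  obtain ⟨c, hc, hc1, hcd⟩ : ∃ c ∈ Y, c ≠ 1 ∧ d * c = c * d := by
    by_contra h3
    push Not at h3
    have hnil : Group.IsNilpotent (Y ⊔ zpowers x : Subgroup G) := by
      refine H5.isNilpotent_of_fpf hdr (H1.le_normalizer_sup (zpowers_le.mpr hd₁)
        (zpowers_le.mpr hd) (mem_zpowers d)) (pow_orderOf_eq_one d) fun k hk hkd => ?_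
      obtain ⟨y, hy, w, hw, rfl⟩ :=
        (mem_sup_iff_of_le_normalizer' (zpowers_le.mpr hY.1.iv.1)).mp hk
      have h4 : y⁻¹ * (d * y * d⁻¹) = w * (d * w * d⁻¹)⁻¹ := by
        calc y⁻¹ * (d * y * d⁻¹) = y⁻¹ * (d * (y * w)) * w⁻¹ * d⁻¹ := by group
          _ = _ := by rw [hkd]; group
      have h5 : y⁻¹ * (d * y * d⁻¹) = 1 := H5.eq_one_of_mem_of_coprime hP
        (h4 ▸ mul_mem hw (inv_mem (conj_mem_of_mem_normalizer hd hw)))
        (hY.1.iv.coprime (mul_mem (inv_mem hy) (conj_mem_of_mem_normalizer hd₁ hy)))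
      have h6 : y = 1 := by
        by_contra h6
        refine h3 y hy h6 ?_
        calc d * y = y * (y⁻¹ * (d * y * d⁻¹)) * d := by group
          _ = _ := by rw [h5, mul_one]
      subst h6
      rw [one_mul] at hkd ⊢
      exact hPd w hw hkd.symm
    exact hY0 (hY.1.eq_bot fun u hu => mem_c1.mpr (commute_of_coprime_of_mem_isNilpotent hnil
      (mem_sup_left hu) (mem_sup_right (mem_zpowers x)) (h.ord ▸ hY.1.iv.coprime hu)))
  have hdC := h.mem_cent_of_fix hi hY hZ hne hd hc hc1 hcd.symm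
  have hw : ⁅d, x⁆ ∈ 𝐂⟦Z⟧ := by
    simpa [commutatorElement_def, mul_assoc] using mul_mem hdC (conj_mem_of_mem_normalizer
      (Cop.normalizer_le_normalizer_centralizer Z hZ.1.iv.1) (inv_mem hdC))
  have h5 := zpowers_le.mpr hw (mem_zp_of_mem h.ord (mul_mem (conj_mem_of_mem_normalizer hd
    (mem_zpowers x)) (inv_mem (mem_zpowers x))) fun e =>
      h0 (commutatorElement_eq_one_iff_commute.mp e))
  exact hZ0 (hZ.1.eq_bot fun u hu => mem_c1.mpr (h5 u hu))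

theorem false_of_iso : False := by
  obtain ⟨r, -, -, -, Y₀, hY₀, -, hY₀0⟩ := h.exists_j_ne hp.out
  obtain ⟨Y, h1, hY⟩ := Finite.exists_le_maximal hY₀
  have hY0 : Y ≠ ⊥ := fun e => hY₀0 (le_bot_iff.mp (e ▸ h1))
  obtain ⟨Z₀, hZ₀, h2⟩ : ∃ Z₀, J p x Z₀ ∧ ¬ Z₀ ≤ Y := by
    by_contra h2
    push Not at h2
    exact h.false_of_uni (h.norm_ne_top hY0 hY.1.nil) hY.1.iv.1 fun _ _ _ W hW _ =>
      (h2 W hW).trans le_normalizer
  obtain ⟨Z, h3, hZ⟩ := Finite.exists_le_maximal hZ₀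
  have hZ0 : Z ≠ ⊥ := fun e => h2 ((e ▸ h3).trans bot_le)
  have hne : Y ≠ Z := fun e => h2 (e ▸ h3)
  have hP := isPGroup_zpowers h.ord
  have h4 : ∀ d ∈ 𝐍⟦zpowers x⟧, (orderOf d).Prime → 𝐜⟦d⟧ ≤ 𝐍⟦zpowers x⟧ := fun d hd hdr => by
    have h4 := h.commute_of_prime hi hY hZ hne hY0 hZ0 hd hdr
    have h5 := h.cent_ne_top (fun e => hdr.one_lt.ne' (by rw [e, orderOf_one]) : d ≠ 1)
    have h6 : x ∈ 𝐜⟦d⟧ := mem_c1.mpr h4.symm
    have h7 : th p x 𝐜⟦d⟧ = ⊥ := by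
      by_contra h7
      obtain ⟨c, hc, hc1⟩ := exists_prime_elem h7
      obtain ⟨W, h8, hW⟩ := Finite.exists_le_maximal (j_th h.ord h6)
      have key : ∀ V, Maximal (J p x) V → W = V := fun V hV => by
        by_contra h9
        have h10 := h.mem_cent_of_fix hi hW hV h9 hd (h8 hc)
          (fun e => hc1.one_lt.ne' (by rw [e, orderOf_one]))
          (mem_c1.mp ((th_le_fit h6).trans (fittingOf_le _) hc))
        exact h9 (hV.eq_of_le hW.1 ((h.le_th h5 h6 hV.1 fun v hv =>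
          mem_c1.mpr (h10 v hv)).trans h8)).symm
      exact hne ((key Y hY).symm.trans (key Z hZ))
    intro g hg
    have h8 := h.mem_th_sup hi h5 h6 (mul_mem (mul_mem hg h6) (inv_mem hg)) (h.conj g).ord
    rw [h7, bot_sup_eq] at h8
    refine mem_normalizer_of_conj_mem ?_
    rintro _ ⟨n, rfl⟩
    have := zpow_mem h8 n
    rwa [conj_zpow] at this
  have h5 : 𝐍⟦zpowers x⟧ ≠ ⊤ := h.norm_ne_top (zpowers_ne_bot.mpr h.ne_one) hP.isNilpotent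
  have hF : IsFrobeniusComplement 𝐍⟦zpowers x⟧ := by
    refine ⟨fun e => h.ne_one (mem_bot.mp (e ▸ le_normalizer (mem_zpowers x))), h5, fun g hg => ?_⟩
    by_contra h0
    obtain ⟨d, hd, hdr⟩ := exists_prime_elem h0
    have h6 := h.commute_of_prime hi hY hZ hne hY0 hZ0 (mem_conj_smul_iff.mp hd.2)
      (by rwa [H5.orderOf_conj''])
    have h7 : g * x * g⁻¹ ∈ 𝐍⟦zpowers x⟧ := h4 d hd.1 hdr (mem_c1.mpr (by
      simpa [mul_assoc] using (h6.conj g).symm))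
    have h8 := hi _ (h.conj g).ord (h.commute_of_prime hi hY hZ hne hY0 hZ0 h7
      ((h.conj g).ord ▸ hp.out))
    refine hg (mem_normalizer_of_conj_mem ?_)
    rintro _ ⟨n, rfl⟩
    have := zpow_mem h8 n
    rwa [conj_zpow] at this
  obtain ⟨K, hK, h6, -⟩ := frobenius_kernel hF
  have h7 := Frob.isFrobeniusPair_of_frobeniusKernel_eq hF h6.symm
  exact h7.ker_ne_bot (le_bot_iff.mp (h.fit ▸ le_fitting
    (H5.isNilpotent_of_isFrobeniusKernel h7.isFrobeniusKernel)))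

end Hy

theorem Hy.false (h : Hy p x) : False :=
  h.false_of_iso fun _ h1 h2 => by_contra fun h3 => false_of_rank h h1 h2 h3

end CfsgLib.F2
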