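import Cfsg.Agent.Lib.F2.E

/-! Flavell's characterisation of `F₂(G)`: the reduction. -/

set_option autoImplicit false

namespace CfsgLib.F2

open Subgroup Cfsg CfsgLib.H1 CfsgLib.H8TwoGen
open scoped commutatorElement

universe u

variable {G : Type*} [Group G] [Finite G] {p : ℕ} [hp : Fact p.Prime] {x : G}

/-- `x ∈ F₂(H)` -/
def Amb (x : G) (H : Subgroup G) : Prop :=
  ∃ N : Subgroup G, x ∈ N ∧ N ≤ H ∧ H ≤ 𝐍⟦N⟧ ∧ ∃ n : ℕ, N.lowerCentralSeries n ≤ fittingOf H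

theorem Amb.map {G' : Type*} [Group G'] (f : G →* G') {H : Subgroup G} (h : Amb x H) :
    Amb (f x) (H.map f) := by
  obtain ⟨N, h1, h2, h3, n, h4⟩ := h
  exact ⟨N.map f, mem_map_of_mem f h1, map_mono h2, map_normalizer_le' h3 f, n,
    map_lowerCentralSeries N f n ▸ (map_mono h4).trans (map_fit_le f H)⟩

theorem Amb.mono {H K : Subgroup G} (h : Amb x H) (h0 : K ≤ H) {y : G} (hy : y ∈ zpowers x)
    (hx : y ∈ K) : Amb y K := by
  obtain ⟨N, h1, h2, h3, n, h4⟩ := h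
  exact ⟨N ⊓ K, ⟨zpowers_le.mpr h1 hy, hx⟩, inf_le_right, H1.le_normalizer_inf (h0.trans h3)
    le_normalizer, n, (le_inf ((lowerCentralSeries_mono n inf_le_left).trans h4)
      ((lowerCentralSeries_le_self _ n).trans inf_le_right)).trans (fittingOf_inf_le h0)⟩

theorem Amb.comap {G' : Type*} [Group G'] [Finite G'] {f : G →* G'} (hf : Function.Injective f)
    {H : Subgroup G} (h : Amb (f x) (H.map f)) : Amb x H := by
  obtain ⟨N, h1, h2, h3, n, h4⟩ := h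
  have h5 : ∀ K : Subgroup G', K ≤ H.map f → K.comap f ≤ H := fun K hK =>
    (comap_mono hK).trans (comap_map_eq_self_of_injective hf H).le
  have h6 : ∀ K : Subgroup G', H.map f ≤ 𝐍⟦K⟧ → H ≤ 𝐍⟦K.comap f⟧ := fun K hK =>
    (map_le_iff_le_comap.mp hK).trans (le_normalizer_comap f)
  refine ⟨N.comap f, h1, h5 N h2, h6 N h3, n, le_trans (map_le_iff_le_comap.mp ?_)
    (le_fittingOf (h5 _ (fittingOf_le _)) (h6 _ (le_normalizer_fittingOf _))
      (isNilpotent_comap_of_injective (fittingOf_isNilpotent _) f hf))⟩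
  rw [map_lowerCentralSeries]
  exact (lowerCentralSeries_mono n (map_comap_le f N)).trans h4

theorem fit_top : fittingOf (⊤ : Subgroup G) = fittingSubgroup G :=
  (map_fitting_eq_inf_of_isSubnormal IsSubnormal.top).trans (inf_top_eq _)

theorem amb_top_iff : Amb x ⊤ ↔ x ∈ (fittingSubgroup (G ⧸ fittingSubgroup G)).comap
    (QuotientGroup.mk' (fittingSubgroup G)) := by
  constructor
  · rintro ⟨N, h1, -, h3, n, h4⟩
    have := normal_of_le_normalizer_top h3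
    have := Normal.map this _ (QuotientGroup.mk'_surjective (fittingSubgroup G))
    refine le_fitting ((isNilpotent_iff_lowerCentralSeries _).mpr ⟨n, ?_⟩) (mem_map_of_mem _ h1)
    rwa [← map_lowerCentralSeries, Subgroup.map_eq_bot_iff, QuotientGroup.ker_mk', ← fit_top]
  · intro h
    obtain ⟨n, hn⟩ := (isNilpotent_iff_lowerCentralSeries _).mp
      (fitting_isNilpotent (G := G ⧸ fittingSubgroup G))
    refine ⟨_, h, le_top, le_normalizer_of_normal, n, ?_⟩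
    refine le_trans ((Subgroup.map_eq_bot_iff _).mp ?_) ((QuotientGroup.ker_mk' _).trans fit_top.symm).le
    rw [map_lowerCentralSeries, eq_bot_iff, ← hn]
    exact lowerCentralSeries_mono n (map_comap_le _ _)

theorem amb_iff {H : Subgroup G} (hx : x ∈ H) : Amb x H ↔ Amb (⟨x, hx⟩ : H) ⊤ := by
  have h1 : (⊤ : Subgroup H).map H.subtype = H := by rw [← MonoidHom.range_eq_map, range_subtype]
  exact ⟨fun h => Amb.comap H.subtype_injective (h1.symm ▸ h), fun h => h1 ▸ h.map H.subtype⟩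

theorem Amb.loc {H : Subgroup G} (h : Amb x H) {k : ℕ} (hk : orderOf x = p ^ k) : Loc p x H := by
  have hx : x ∈ H := by obtain ⟨N, h1, h2, -⟩ := h; exact h2 h1
  have h1 : (⊤ : Subgroup H).map H.subtype = H := by rw [← MonoidHom.range_eq_map, range_subtype]
  suffices h2 : Loc p (⟨x, hx⟩ : H) ⊤ from h1 ▸ h2.map H.subtype
  have h2 := amb_top_iff.mp ((amb_iff hx).mp h)
  have := pCore_normal p (H ⧸ fittingSubgroup H)
  refine ⟨(pCore p (H ⧸ fittingSubgroup H)).comap (QuotientGroup.mk' _), mem_comap.mpr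
    (le_pCore_of_le_fitting (zpowers_le.mpr h2) ?_ (mem_zpowers _)), le_top, le_normalizer_of_normal,
    fun y hy => ?_⟩
  · rw [← MonoidHom.map_zpowers]
    exact (isPGroup_zpowers_iff.mpr ⟨k, by rwa [orderOf_mk]⟩).map _
  · obtain ⟨l, hl⟩ := pCore_isPGroup p ⟨_, hy⟩
    refine ⟨l, ?_⟩
    rw [fit_top, ← QuotientGroup.eq_one_iff]
    exact congrArg Subtype.val hl

theorem comm_mem_cent {N : Subgroup G} [N.Normal] (hN : IsMinNormal N)
    (hNF : N ≤ fittingSubgroup G) (two : ∀ y, closure {x, y} ≠ ⊤)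
    (loc : ∀ H : Subgroup G, H ≠ ⊤ → x ∈ H → Loc p x H) {r : ℕ} [hr : Fact r.Prime] (hrp : r ≠ p)
    {a : G} (ha : (a : G ⧸ N) ∈ pCore r (G ⧸ N)) : ⁅a, x⁆ ∈ 𝐂⟦N⟧ := by
  have := isNilpotent_of_le fitting_isNilpotent hNF
  obtain ⟨q, hq, hNq⟩ := hN.exists_isElementaryAbelian inferInstance
  have := Fact.mk hq
  have hNp := isPGroup_of_isElementaryAbelian hNq
  have hNC : N ≤ 𝐂⟦N⟧ := le_centralizer_iff_isMulCommutative.mpr hNq.1
  have := pCore_normal r (G ⧸ N)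
  obtain ⟨Q, hQ⟩ : ∃ Q, Q = (pCore r (G ⧸ N)).comap (QuotientGroup.mk' N) := ⟨_, rfl⟩
  have hQn : Q.Normal := hQ ▸ inferInstance
  have hNQ : N ≤ Q := fun y hy => by
    rw [hQ, mem_comap, QuotientGroup.mk'_apply, (QuotientGroup.eq_one_iff y).mpr hy]
    exact one_mem _
  have haQ : a ∈ Q := hQ ▸ ha
  have hQr : ∀ y ∈ Q, ∃ k : ℕ, y ^ r ^ k ∈ N := fun y hy => by
    obtain ⟨l, hl⟩ := pCore_isPGroup r ⟨_, (hQ ▸ hy : y ∈ comap _ _)⟩
    exact ⟨l, (QuotientGroup.eq_one_iff _).mp (congrArg Subtype.val hl)⟩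
  have hcQ : ∀ {K : Subgroup G} [K.Normal] {y : G}, y ∈ K → ⁅y, x⁆ ∈ K := fun {K} hK y hy => by
    simpa [commutatorElement_def, mul_assoc] using mul_mem hy (hK.conj_mem _ (inv_mem hy) x)
  by_contra h0
  have hrq : r ≠ q := by
    rintro rfl
    refine h0 (Cop.commutator_eq_bot_iff_le_centralizer'.mp hN.commutator_fitting_eq_bot
      (le_fitting (N := Q) (IsPGroup.isNilpotent (p := r) fun ⟨y, hy⟩ => ?_) (hcQ haQ)))
    obtain ⟨k, hk⟩ := hQr y hy
    exact ⟨k + 1, Subtype.ext (by simpa [pow_succ, pow_mul] using hNq.2 _ hk)⟩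
  have key : ∀ H : Subgroup G, H ≠ ⊤ → x ∈ H → ∀ m ∈ N, m * a ∈ H →
      ∃ u ∈ pCoreOf r H, u ∈ Q ∧ u ∉ 𝐂⟦N⟧ := fun H hH hx m hm hma => by
    obtain ⟨L, h2, -, h4, h5⟩ := loc H hH hx
    have h6 := hcQ (mul_mem (hNQ hm) haQ)
    obtain ⟨k, hk⟩ := hQr _ h6
    obtain ⟨l, -, hl⟩ := (Nat.dvd_prime_pow hr.out).mp (orderOf_dvd_of_pow_eq_one
      (show (⁅m * a, x⁆ ^ q) ^ r ^ k = 1 by rw [← pow_mul, mul_comm, pow_mul]; exact hNq.2 _ hk))
    obtain ⟨j, hj⟩ := h5 _ (pow_mem (mul_mem (conj_mem_of_mem_normalizer (h4 hma) h2)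
      (inv_mem h2)) q)
    refine ⟨⁅m * a, x⁆ ^ q, mem_pc (mem_fit_of_pow hj (hl ▸
      ((Nat.coprime_primes hr.out hp.out).mpr hrp).pow_left l)) hl, pow_mem h6 q, fun h7 => h0 ?_⟩
    have h8 : ⁅m * a, x⁆ ∈ 𝐂⟦N⟧ := by
      rw [← QuotientGroup.eq_one_iff, ← orderOf_eq_one_iff]
      refine Nat.eq_one_of_dvd_coprimes (((Nat.coprime_primes hr.out hq).mpr hrq).pow_left k)
        (orderOf_dvd_of_pow_eq_one ?_) (orderOf_dvd_of_pow_eq_one ?_)
      · exact (QuotientGroup.eq_one_iff _).mpr (hNC hk)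
      · exact (QuotientGroup.eq_one_iff _).mpr h7
    have h9 := mul_mem (mul_mem (mul_mem (inv_mem (hNC hm)) h8) (inv_mem (hNC (hcQ hm)))) (hNC hm)
    convert h9 using 1
    simp only [commutatorElement_def]; group
  obtain ⟨H, hH⟩ : ∃ H : G → Subgroup G, H = fun m => closure {x, m * a} := ⟨_, rfl⟩
  have hxH : ∀ m, x ∈ H m := fun m => hH ▸ subset_closure (by simp)
  have haH : ∀ m, m * a ∈ H m := fun m => hH ▸ subset_closure (by simp)
  have hHt : ∀ m, H m ≠ ⊤ := fun m => hH ▸ two _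
  have h1 : ∀ m ∈ N, ∀ g : G, ∃ n ∈ N, ∃ y ∈ H m, n * y = g := fun m hm g => by
    refine (mem_sup_iff_of_le_normalizer' le_normalizer_of_normal).mp ?_
    by_contra h1
    obtain ⟨u, h2, -, h3⟩ := key (N ⊔ H m) (fun e => h1 (e ▸ mem_top g)) (mem_sup_right (hxH m))
      m hm (mem_sup_right (haH m))
    exact h3 fun y hy => (commute_pc hrq h2
      (le_pCoreOf le_sup_left le_normalizer_of_normal hNp hy)).symm.eq
  have h2 : ∀ m ∈ N, ∀ W : Subgroup G, W ≤ N → H m ≤ 𝐍⟦W⟧ → W = ⊥ ∨ W = N := fun m hm W h2 h3 =>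
    hN.2.2 W (normal_of_le_normalizer_top fun g _ => by
      obtain ⟨n, hn, y, hy, rfl⟩ := h1 m hm g
      exact mul_mem (centralizer_le_normalizer _ (centralizer_le h2 (hNC hn))) (h3 hy)) h2
  have h3 : ∀ m ∈ N, ∀ y ∈ N, y ∈ H m → y = 1 := fun m hm y hy hy' => by
    rcases h2 m hm (N ⊓ H m) inf_le_left (H1.le_normalizer_inf le_normalizer_of_normal
      le_normalizer) with h3 | h3
    · exact mem_bot.mp (h3 ▸ mem_inf.mpr ⟨hy, hy'⟩)
    · refine absurd (top_le_iff.mp fun g _ => ?_) (hHt m)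
      obtain ⟨n, hn, y, hy, rfl⟩ := h1 m hm g
      exact mul_mem (inf_eq_left.mp h3 hn) hy
  have h4 : ∀ m ∈ N, ∀ g ∈ Q, ∃ n ∈ N, ∃ y ∈ Q ⊓ H m, n * y = g := fun m hm g hg => by
    obtain ⟨n, hn, y, hy, rfl⟩ := h1 m hm g
    exact ⟨n, hn, y, ⟨(mul_mem_cancel_left (hNQ hn)).mp hg, hy⟩, rfl⟩
  have h5 : ∀ m, H m ≤ 𝐍⟦(Q ⊓ H m : Subgroup G)⟧ := fun m =>
    H1.le_normalizer_inf le_normalizer_of_normal le_normalizer
  have h6 : 𝐍⟦(Q ⊓ H 1 : Subgroup G)⟧ ≤ H 1 := fun g hg => by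
    obtain ⟨n, hn, y, hy, rfl⟩ := h1 1 (one_mem _) g
    have h6 := (mul_mem_cancel_right (h5 1 hy)).mp hg
    rcases h2 1 (one_mem _) (N ⊓ 𝐂⟦(Q ⊓ H 1 : Subgroup G)⟧) inf_le_left (H1.le_normalizer_inf
      le_normalizer_of_normal (H1.le_normalizer_centralizer (h5 1))) with h7 | h7
    · have : n ∈ N ⊓ 𝐂⟦(Q ⊓ H 1 : Subgroup G)⟧ := ⟨hn, fun w hw =>
        (commutatorElement_eq_one_iff_mul_comm.mp (h3 1 (one_mem _) ⁅n, w⁆ (by
          simpa [commutatorElement_def, mul_assoc] using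
            mul_mem hn (hN.1.conj_mem _ (inv_mem hn) w))
          (mul_mem (conj_mem_of_mem_normalizer h6 hw).2 (inv_mem hw.2)))).symm⟩
      rw [h7, mem_bot] at this
      rwa [this, one_mul]
    · obtain ⟨u, h8, h9, h10⟩ := key _ (hHt 1) (hxH 1) 1 (one_mem _) (haH 1)
      exact absurd (le_centralizer_iff.mp (inf_eq_left.mp h7) ⟨h9, pCoreOf_le _ h8⟩) h10
  have h7 : ∀ m : N, ∃ n : N, ∀ g ∈ H m, (n : G) * g * (n : G)⁻¹ ∈ H 1 := fun m => by
    have h7 : IsPGroup r (Q ⊓ H m : Subgroup G) := fun ⟨y, hy⟩ => by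
      obtain ⟨k, hk⟩ := hQr y hy.1
      exact ⟨k, Subtype.ext (h3 m m.2 _ hk (pow_mem hy.2 _))⟩
    obtain ⟨n, hn, h8⟩ := Cop.exists_conj_le_of_le_sup (N := N) (K := Q ⊓ H 1) (B := Q ⊓ H m)
      le_normalizer_of_normal (fun g hg => by
        obtain ⟨n, hn, y, hy, rfl⟩ := h4 1 (one_mem _) g hg.1
        exact mul_mem (mem_sup_left hn) (mem_sup_right hy))
      (Cop.coprime_card_of_isPGroup (coprime_card_of_isPGroup_of_ne hrq h7) hNp)
      (Or.inl (isSolvable_of_isPGroup h7))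
    have h9 : n •⟦(Q ⊓ H m : Subgroup G)⟧ = Q ⊓ H 1 := le_antisymm h8 fun g hg => by
      obtain ⟨n', hn', y, hy, h9⟩ := h4 m m.2 (n⁻¹ * g * n) (hQn.conj_mem' _ hg.1 n)
      have h10 := h8 (conj_mem_map_conj hy)
      have h11 : n * n' * n⁻¹ = g * (n * y * n⁻¹)⁻¹ := by
        rw [eq_mul_inv_of_mul_eq h9]; group
      have h12 := h3 1 (one_mem _) _ (hN.1.conj_mem _ hn' n)
        (h11 ▸ mul_mem hg.2 (inv_mem h10.2))
      rw [h11] at h12
      rw [mul_inv_eq_one.mp h12]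
      exact conj_mem_map_conj hy
    refine ⟨⟨n, hn⟩, fun g hg => h6 ?_⟩
    rw [← h9, normalizer_map_conj]
    exact conj_mem_map_conj (h5 m hg)
  choose φ hφ using h7
  have h8 : Function.Injective φ := fun m m' e => by
    have h8 := mul_mem (hφ m _ (haH m)) (inv_mem (hφ m' _ (haH m')))
    rw [← e, show (φ m : G) * (m * a) * (φ m : G)⁻¹ * ((φ m : G) * (m' * a) * (φ m : G)⁻¹)⁻¹ =
      φ m * (m * (m' : G)⁻¹) * (φ m : G)⁻¹ by group] at h8
    have h9 := h3 1 (one_mem _) _ (hN.1.conj_mem _ (mul_mem m.2 (inv_mem m'.2)) _) h8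
    exact Subtype.ext (mul_inv_eq_one.mp (by simpa [mul_inv_eq_one] using h9))
  have h9 : x ∈ 𝐂⟦N⟧ := fun n hn => by
    obtain ⟨m, hm⟩ := Finite.injective_iff_surjective.mp h8 ⟨n, hn⟩
    have h9 := hφ m _ (hxH m)
    rw [hm] at h9
    exact commutatorElement_eq_one_iff_mul_comm.mp (h3 1 (one_mem _) _ (hcQ hn)
      (mul_mem h9 (inv_mem (hxH 1))))
  exact h0 (mul_mem (Normal.conj_mem inferInstance _ h9 a) (inv_mem h9))

theorem exists_lcs_le {D E : Subgroup G} [E.Normal] (h : ∀ y ∈ D, ∃ k : ℕ, y ^ p ^ k ∈ E) :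
    ∃ n : ℕ, D.lowerCentralSeries n ≤ E := by
  have h1 : IsPGroup p (D.map (QuotientGroup.mk' E)) := by
    rintro ⟨_, y, hy, rfl⟩
    obtain ⟨k, hk⟩ := h y hy
    exact ⟨k, Subtype.ext ((QuotientGroup.eq_one_iff _).mpr hk)⟩
  obtain ⟨n, hn⟩ := (isNilpotent_iff_lowerCentralSeries _).mp h1.isNilpotent
  exact ⟨n, by
    rwa [← map_lowerCentralSeries, Subgroup.map_eq_bot_iff, QuotientGroup.ker_mk'] at hn⟩

theorem amb_of_quot {N : Subgroup G} [N.Normal] (hN : IsMinNormal N)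
    (hNF : N ≤ fittingSubgroup G) (two : ∀ y, closure {x, y} ≠ ⊤)
    (loc : ∀ H : Subgroup G, H ≠ ⊤ → x ∈ H → Loc p x H) (h : Loc p (x : G ⧸ N) ⊤) : Amb x ⊤ := by
  obtain ⟨L, h1, -, h2, h3⟩ := h
  have := normal_of_le_normalizer_top h2
  have hNC : N ≤ 𝐂⟦N⟧ := hNF.trans
    (Cop.commutator_eq_bot_iff_le_centralizer'.mp hN.commutator_fitting_eq_bot)
  have := normal_of_le_normalizer_top (norm_Fp (p := p) (⊤ : Subgroup (G ⧸ N)))
  obtain ⟨E, hE⟩ : ∃ E, E = (Fp p (⊤ : Subgroup (G ⧸ N))).comap (QuotientGroup.mk' N) := ⟨_, rfl⟩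
  have hEn : E.Normal := hE ▸ inferInstance
  have hEC : E ⊓ 𝐂⟦N⟧ ≤ fittingSubgroup G := by
    obtain ⟨n, hn⟩ := (isNilpotent_iff_lowerCentralSeries _).mp
      (fittingOf_isNilpotent (⊤ : Subgroup (G ⧸ N)))
    refine le_fitting ((isNilpotent_iff_lowerCentralSeries _).mpr ⟨n + 1, ?_⟩)
    have h4 : (E ⊓ 𝐂⟦N⟧).lowerCentralSeries n ≤ N := by
      refine le_trans ((Subgroup.map_eq_bot_iff _).mp ?_) (QuotientGroup.ker_mk' _).le
      rw [map_lowerCentralSeries, eq_bot_iff, ← hn]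
      exact lowerCentralSeries_mono n (map_le_iff_le_comap.mpr (inf_le_left.trans
        (hE ▸ comap_mono (piCoreOf_le _))))
    rw [Subgroup.lowerCentralSeries_succ, eq_bot_iff]
    exact (commutator_mono h4 inf_le_right).trans
      (Cop.commutator_eq_bot_iff_le_centralizer'.mpr le_rfl).le
  have := Normal.map hEn _ (QuotientGroup.mk'_surjective 𝐂⟦N⟧)
  obtain ⟨D, hD⟩ : ∃ D, D = L.comap (QuotientGroup.mk' N) ⊓
    (𝐂⟦E.map (QuotientGroup.mk' 𝐂⟦N⟧)⟧).comap (QuotientGroup.mk' 𝐂⟦N⟧) := ⟨_, rfl⟩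
  have hDn : D.Normal := hD ▸ inferInstance
  have hc : ∀ a b : G, ⁅a, b⁆ ∈ 𝐂⟦N⟧ ↔
      QuotientGroup.mk' 𝐂⟦N⟧ a * QuotientGroup.mk' 𝐂⟦N⟧ b =
        QuotientGroup.mk' 𝐂⟦N⟧ b * QuotientGroup.mk' 𝐂⟦N⟧ a := fun a b => by
    rw [← commutatorElement_eq_one_iff_mul_comm, ← map_commutatorElement,
      QuotientGroup.mk'_apply, QuotientGroup.eq_one_iff]
  obtain ⟨n, hn⟩ := exists_lcs_le (p := p) (D := D) (E := E) fun y hy => by
    rw [hD] at hy
    obtain ⟨k, hk⟩ := h3 _ hy.1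
    obtain ⟨l, hl⟩ := PRes.exists_pow_pow_coprime hp.out (QuotientGroup.mk' N y ^ p ^ k)
    refine ⟨k + l, ?_⟩
    rw [hE, mem_comap, pow_add, pow_mul, map_pow, map_pow]
    exact mem_Fp (pow_mem hk _) hl
  refine ⟨D, hD ▸ mem_inf.mpr ⟨h1, ?_⟩, le_top, le_normalizer_of_normal, n + 1, ?_⟩
  · have h4 : E ≤ (𝐜⟦QuotientGroup.mk' 𝐂⟦N⟧ x⟧).comap (QuotientGroup.mk' 𝐂⟦N⟧) := by
      refine le_of_forall_primePow_mem fun a ha r k hr hk => mem_c1.mpr ((hc a x).mp ?_)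
      have := Fact.mk hr
      have ha' : (a : G ⧸ N) ∈ Fp p ⊤ := by rw [hE] at ha; exact ha
      obtain ⟨l, -, hl⟩ := (Nat.dvd_prime_pow hr).mp
        (hk ▸ orderOf_map_dvd (QuotientGroup.mk' N) a)
      by_cases hrp : r = p
      · subst hrp
        have h4 := (QuotientGroup.eq_one_iff a).mp (H5.eq_one_of_mem_of_coprime
          (isPGroup_zpowers_iff.mpr ⟨l, hl⟩) (mem_zpowers _) (Nat.Coprime.coprime_dvd_left
            (orderOf_dvd_natCard _ ha') (piCoreOf_compl_coprime r _)))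
        simpa [commutatorElement_def, mul_assoc] using
          hNC (mul_mem h4 (hN.1.conj_mem _ (inv_mem h4) x))
      · exact comm_mem_cent hN hNF two loc hrp (by
          rw [← pCoreOf_top]; exact mem_pc (piCoreOf_le _ ha') hl)
    rintro _ ⟨a, ha, rfl⟩
    exact mem_c1.mp (h4 ha)
  · rw [fit_top, Subgroup.lowerCentralSeries_succ]
    refine (commutator_mono hn le_rfl).trans (le_trans (le_inf (commutator_le_left _ _) ?_) hEC)
    rw [commutator_le]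
    intro a ha b hb
    rw [hD] at hb
    exact (hc a b).mpr (hb.2 _ (mem_map_of_mem _ ha))

theorem amb_of_two (X : Type u) [Group X] [Finite X] :
    ∀ x : X, (∀ y, Amb x (closure {x, y})) → Amb x ⊤ := by
  refine card_induction (P := fun X _ _ => ∀ x : X, (∀ y, Amb x (closure {x, y})) → Amb x ⊤)
    (fun X _ _ ih x hx => ?_) X
  have h1 : ∀ x' ∈ zpowers x, ∀ y, Amb x' (closure {x', y}) := fun x' hx' y =>
    (hx y).mono ((closure_le _).mpr (by
      rintro _ (rfl | rfl)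
      · exact zpowers_le.mpr (subset_closure (by simp)) hx'
      · exact subset_closure (by simp))) hx' (subset_closure (by simp))
  refine amb_top_iff.mpr (mem_of_forall_primePow_mem fun z hz p k hp hk => amb_top_iff.mp ?_)
  have := Fact.mk hp
  have h2 : ∀ w ∈ zpowers x, ∀ l : ℕ, orderOf w = p ^ l → ¬ Amb w ⊤ →
      (∀ y, closure {w, y} ≠ ⊤) ∧ ∀ H : Subgroup X, H ≠ ⊤ → w ∈ H → Loc p w H :=
    fun w hw l hl h0 => ⟨fun y e => h0 (e ▸ h1 w hw y), fun H hH hwH =>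
      ((amb_iff hwH).mpr (ih H (card_lt_of_ne_top hH) _ fun y => Amb.comap H.subtype_injective (by
        rw [MonoidHom.map_closure, Set.image_pair]; exact h1 w hw y))).loc hl⟩
  by_contra h0
  by_cases hF : fittingSubgroup X = ⊥
  · have h3 : ∀ w : X, Amb w ⊤ → w = 1 := by
      rintro w ⟨N, h3, -, h4, n, h5⟩
      have := normal_of_le_normalizer_top h4
      rw [fit_top, hF, le_bot_iff] at h5
      exact mem_bot.mp (hF ▸ le_fitting ((isNilpotent_iff_lowerCentralSeries _).mpr ⟨n, h5⟩) h3)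
    obtain ⟨w, hw, hw'⟩ := exists_orderOf (isPGroup_zpowers_iff.mpr ⟨k, hk⟩) (zpowers_ne_bot.mpr
      fun e => h0 ⟨⊥, e ▸ one_mem _, bot_le, le_normalizer_of_normal, 0, bot_le⟩)
    obtain ⟨h4, h5⟩ := h2 w (zpowers_le.mpr hz hw) 1 (by rw [hw', pow_one])
      fun e => ne_one_of_orderOf hw' (h3 w e)
    exact Hy.false ⟨hw', hF, h4, h5⟩
  · obtain ⟨N, hN, hNF⟩ := exists_isMinNormal_le _ hF
    have := hN.1
    obtain ⟨h3, h4⟩ := h2 z hz k hk h0
    obtain ⟨l, -, hl⟩ := (Nat.dvd_prime_pow hp).mp (hk ▸ orderOf_map_dvd (QuotientGroup.mk' N) z)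
    refine h0 (amb_of_quot hN hNF h3 h4 ((ih (X ⧸ N) (card_quotient_lt hN.2.1) _ fun y => ?_).loc hl))
    obtain ⟨y, rfl⟩ := QuotientGroup.mk'_surjective N y
    have := (h1 z hz y).map (QuotientGroup.mk' N)
    rwa [MonoidHom.map_closure, Set.image_pair] at this

end CfsgLib.F2
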